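import Mathlib
import Cfsg.Agent.Lib.Helper17.Small
import Cfsg.Agent.Lib.Helper17.PrimeDegree

set_option autoImplicit false
set_option linter.unusedSectionVars false

namespace Cfsg.Agent.Lib.Helper35.Ord4080

open Cfsg.Agent.Lib.Helper17

variable {G : Type*} [Group G] [Finite G] [IsSimpleGroup G]

omit [Group G] [Finite G] [IsSimpleGroup G] in
theorem not_prime_4080 (h : Nat.card G = 4080) : ¬ (Nat.card G).Prime := by
  rw [h]; norm_num

instance fact_prime_five : Fact (Nat.Prime 5) := ⟨by norm_num⟩
instance fact_prime_seventeen : Fact (Nat.Prime 17) := ⟨by norm_num⟩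

omit [IsSimpleGroup G] in
/-- Cauchy's theorem inside a subgroup. -/
theorem exists_mem_orderOf (H : Subgroup G) (p : ℕ) [Fact p.Prime] (hd : p ∣ Nat.card H) :
    ∃ x ∈ H, orderOf x = p := by
  obtain ⟨x, hx⟩ := exists_prime_orderOf_dvd_card' (G := H) p hd
  exact ⟨(x : G), x.2, by rw [Subgroup.orderOf_coe]; exact hx⟩

omit [Finite G] [IsSimpleGroup G] in
/-- The centralizer of an element is the centralizer of the cyclic subgroup it generates. -/
theorem centralizer_singleton_eq (z : G) (P : Subgroup G) (hP : Subgroup.zpowers z = P) :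
    Subgroup.centralizer ({z} : Set G) = Subgroup.centralizer (P : Set G) := by
  ext x
  rw [Subgroup.mem_centralizer_singleton_iff, Subgroup.mem_centralizer_iff]
  constructor
  · intro hx g hg
    have hg' : g ∈ Subgroup.zpowers z := by rw [hP]; exact hg
    obtain ⟨k, rfl⟩ := Subgroup.mem_zpowers_iff.mp hg'
    have hc : Commute x z := hx
    exact (hc.zpow_right k).eq.symm
  · intro hx
    exact (hx z (by rw [← hP]; exact Subgroup.mem_zpowers z)).symm

/-- A non-normal Sylow subgroup has at least 17 conjugates. -/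
theorem card_sylow_ge (h : Nat.card G = 4080) (p : ℕ) [Fact p.Prime]
    (hne : Nat.card (Sylow p G) ≠ 1) : 17 ≤ Nat.card (Sylow p G) := by
  have h1 := card_dvd_factorial_card_sylow (G := G) p hne
  rw [h] at h1
  have h2 : 17 ∣ (Nat.card (Sylow p G)).factorial := Dvd.dvd.trans (by norm_num) h1
  exact (Nat.Prime.dvd_factorial (by norm_num)).mp h2

theorem card_sylow17 (h : Nat.card G = 4080) : Nat.card (Sylow 17 G) = 120 := by
  have hc := card_sylow_mem_cands (G := G) 17 1 240 (by rw [h]; norm_num) (by norm_num)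
  have hcl : sylowCands 17 240 = [1, 120] := by decide +kernel
  rw [hcl] at hc
  simp only [List.mem_cons, List.not_mem_nil, or_false] at hc
  rcases hc with hc | hc
  · exact absurd hc (card_sylow_ne_one 17 (by rw [h]; norm_num) 2 (by norm_num) (by norm_num)
      (by rw [h]; norm_num))
  · exact hc

theorem card_sylow17_sub (h : Nat.card G = 4080) (P : Sylow 17 G) :
    Nat.card (P : Subgroup G) = 17 :=
  card_sylow_eq_of_card_eq 17 1 240 (by rw [h]; norm_num) (by norm_num) P

theorem card_sylow5_sub (h : Nat.card G = 4080) (P : Sylow 5 G) : Nat.card (P : Subgroup G) = 5 :=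
  card_sylow_eq_of_card_eq 5 1 816 (by rw [h]; norm_num) (by norm_num) P

theorem card_sylow3_sub (h : Nat.card G = 4080) (P : Sylow 3 G) : Nat.card (P : Subgroup G) = 3 :=
  card_sylow_eq_of_card_eq 3 1 1360 (by rw [h]; norm_num) (by norm_num) P

theorem card_sylow2_sub (h : Nat.card G = 4080) (S : Sylow 2 G) : Nat.card (S : Subgroup G) = 16 :=
  card_sylow_eq_of_card_eq 2 4 255 (by rw [h]; norm_num) (by norm_num) S

/-- An element commuting with an element of order 17 has order dividing 17. -/
theorem orderOf_dvd_17_of_commute (h : Nat.card G = 4080) (y x : G) (hy : orderOf y = 17)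
    (hyx : x * y = y * x) : orderOf x ∣ 17 := by
  have hpg : IsPGroup 17 (Subgroup.zpowers y) := by
    apply IsPGroup.of_card (n := 1)
    rw [Nat.card_zpowers, hy, pow_one]
  obtain ⟨P, hPle⟩ := hpg.exists_le_sylow
  have hyP : y ∈ (P : Subgroup G) := hPle (Subgroup.mem_zpowers y)
  have hP := card_sylow17_sub h P
  have hy1 : y ≠ 1 := by
    rintro rfl
    rw [orderOf_one] at hy
    omega
  have hz := zpowers_eq_of_mem_of_card_prime (by norm_num : Nat.Prime 17) (P : Subgroup G) hP y hyP hy1
  obtain ⟨r1, r2, r3, r4⟩ := relIndex_centralizer_sylow_prime (not_prime_4080 h) 17 P hP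
  have hN := card_sylow_mul_card_normalizer 17 P
  rw [h, card_sylow17 h] at hN
  have hN' : Nat.card (Subgroup.normalizer ((P : Subgroup G) : Set G)) = 34 := by omega
  rw [hN'] at r3
  have h17 : Nat.card (Subgroup.centralizer ((P : Subgroup G) : Set G)) = 17 := by
    have hr : (Subgroup.centralizer ((P : Subgroup G) : Set G)).relIndex
        (Subgroup.normalizer ((P : Subgroup G) : Set G)) ≤ 16 := Nat.le_of_dvd (by norm_num) r2
    have h17d : 17 ∣ Nat.card (Subgroup.centralizer ((P : Subgroup G) : Set G)) := by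
      have := Subgroup.card_dvd_of_le r4
      rwa [hP] at this
    generalize (Subgroup.centralizer ((P : Subgroup G) : Set G)).relIndex
        (Subgroup.normalizer ((P : Subgroup G) : Set G)) = r at *
    generalize Nat.card (Subgroup.centralizer ((P : Subgroup G) : Set G)) = c at *
    obtain ⟨d, rfl⟩ := h17d
    have hd : r * d = 2 := by nlinarith
    have hr2 : r ∣ 2 := Dvd.intro _ hd
    have hr2' : r ≤ 2 := Nat.le_of_dvd (by norm_num) hr2
    interval_cases r <;> omega
  have hx : x ∈ Subgroup.centralizer ((P : Subgroup G) : Set G) := by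
    rw [← centralizer_singleton_eq y _ hz]
    exact Subgroup.mem_centralizer_singleton_iff.mpr hyx
  have := Subgroup.orderOf_dvd_natCard _ hx
  rwa [h17] at this

/-- No centralizer of an element of order 2, 3 or 5 has order divisible by 17. -/
theorem not_17_dvd_centralizer (h : Nat.card G = 4080) (x : G) (hx : ¬ orderOf x ∣ 17) :
    ¬ 17 ∣ Nat.card (Subgroup.centralizer ({x} : Set G)) := by
  intro hd
  obtain ⟨y, hyC, hy17⟩ := exists_mem_orderOf _ 17 hd
  have hyx : x * y = y * x := (Subgroup.mem_centralizer_singleton_iff.mp hyC).symm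
  exact hx (orderOf_dvd_17_of_commute h y x hy17 hyx)

theorem card_sylow3_cases (h : Nat.card G = 4080) :
    Nat.card (Sylow 3 G) = 34 ∨ Nat.card (Sylow 3 G) = 40 ∨ Nat.card (Sylow 3 G) = 85 ∨
      Nat.card (Sylow 3 G) = 136 ∨ Nat.card (Sylow 3 G) = 340 ∨ Nat.card (Sylow 3 G) = 1360 := by
  have hc := card_sylow_mem_cands (G := G) 3 1 1360 (by rw [h]; norm_num) (by norm_num)
  have hcl : sylowCands 3 1360 = [1, 4, 10, 16, 34, 40, 85, 136, 340, 1360] := by decide +kernel
  rw [hcl] at hc
  simp only [List.mem_cons, List.not_mem_nil, or_false] at hc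
  have hne1 : Nat.card (Sylow 3 G) ≠ 1 :=
    card_sylow_ne_one 3 (by rw [h]; norm_num) 2 (by norm_num) (by norm_num) (by rw [h]; norm_num)
  have := card_sylow_ge h 3 hne1
  omega

theorem card_sylow5_cases (h : Nat.card G = 4080) :
    Nat.card (Sylow 5 G) = 51 ∨ Nat.card (Sylow 5 G) = 136 ∨ Nat.card (Sylow 5 G) = 816 := by
  have hc := card_sylow_mem_cands (G := G) 5 1 816 (by rw [h]; norm_num) (by norm_num)
  have hcl : sylowCands 5 816 = [1, 6, 16, 51, 136, 816] := by decide +kernel
  rw [hcl] at hc
  simp only [List.mem_cons, List.not_mem_nil, or_false] at hc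
  have hne1 : Nat.card (Sylow 5 G) ≠ 1 :=
    card_sylow_ne_one 5 (by rw [h]; norm_num) 2 (by norm_num) (by norm_num) (by rw [h]; norm_num)
  have := card_sylow_ge h 5 hne1
  omega

/-- For `z` of order 3: `2 * |C(z)| * n_3 = |G|`. -/
theorem sylow3_data (h : Nat.card G = 4080) (z : G) (hz : orderOf z = 3) :
    2 * Nat.card (Subgroup.centralizer ({z} : Set G)) * Nat.card (Sylow 3 G) = 4080 := by
  have hpg : IsPGroup 3 (Subgroup.zpowers z) := by
    apply IsPGroup.of_card (n := 1)
    rw [Nat.card_zpowers, hz, pow_one]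
  obtain ⟨P, hPle⟩ := hpg.exists_le_sylow
  have hzP : z ∈ (P : Subgroup G) := hPle (Subgroup.mem_zpowers z)
  have hP := card_sylow3_sub h P
  have hz1 : z ≠ 1 := by
    rintro rfl
    rw [orderOf_one] at hz
    omega
  have hzp := zpowers_eq_of_mem_of_card_prime (by norm_num : Nat.Prime 3) (P : Subgroup G) hP z hzP hz1
  obtain ⟨r1, r2, r3, r4⟩ := relIndex_centralizer_sylow_prime (not_prime_4080 h) 3 P hP
  have hN := card_sylow_mul_card_normalizer 3 P
  rw [h] at hN
  rw [centralizer_singleton_eq z _ hzp]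
  have hr : (Subgroup.centralizer ((P : Subgroup G) : Set G)).relIndex
      (Subgroup.normalizer ((P : Subgroup G) : Set G)) = 2 := by
    have hr2 : (Subgroup.centralizer ((P : Subgroup G) : Set G)).relIndex
      (Subgroup.normalizer ((P : Subgroup G) : Set G)) ≤ 2 := Nat.le_of_dvd (by norm_num) r2
    have hr0 : (Subgroup.centralizer ((P : Subgroup G) : Set G)).relIndex
      (Subgroup.normalizer ((P : Subgroup G) : Set G)) ≠ 0 := by
      intro h0
      rw [h0, zero_mul] at r3
      rw [← r3, mul_zero] at hN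
      omega
    omega
  rw [hr] at r3
  rw [r3, mul_comm]
  exact hN

/-- For `w` of order 5: `r * |C(w)| * n_5 = |G|` with `r ∈ {2, 4}`. -/
theorem sylow5_data (h : Nat.card G = 4080) (w : G) (hw : orderOf w = 5) :
    ∃ r : ℕ, (r = 2 ∨ r = 4) ∧
      r * Nat.card (Subgroup.centralizer ({w} : Set G)) * Nat.card (Sylow 5 G) = 4080 := by
  have hpg : IsPGroup 5 (Subgroup.zpowers w) := by
    apply IsPGroup.of_card (n := 1)
    rw [Nat.card_zpowers, hw, pow_one]
  obtain ⟨P, hPle⟩ := hpg.exists_le_sylow
  have hwP : w ∈ (P : Subgroup G) := hPle (Subgroup.mem_zpowers w)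
  have hP := card_sylow5_sub h P
  have hw1 : w ≠ 1 := by
    rintro rfl
    rw [orderOf_one] at hw
    omega
  have hwp := zpowers_eq_of_mem_of_card_prime (by norm_num : Nat.Prime 5) (P : Subgroup G) hP w hwP hw1
  obtain ⟨r1, r2, r3, r4⟩ := relIndex_centralizer_sylow_prime (not_prime_4080 h) 5 P hP
  have hN := card_sylow_mul_card_normalizer 5 P
  rw [h] at hN
  rw [centralizer_singleton_eq w _ hwp]
  refine ⟨(Subgroup.centralizer ((P : Subgroup G) : Set G)).relIndex
      (Subgroup.normalizer ((P : Subgroup G) : Set G)), ?_, ?_⟩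
  · have hr2 : (Subgroup.centralizer ((P : Subgroup G) : Set G)).relIndex
      (Subgroup.normalizer ((P : Subgroup G) : Set G)) ≤ 4 := Nat.le_of_dvd (by norm_num) r2
    have hr0 : (Subgroup.centralizer ((P : Subgroup G) : Set G)).relIndex
      (Subgroup.normalizer ((P : Subgroup G) : Set G)) ≠ 0 := by
      intro h0
      rw [h0, zero_mul] at r3
      rw [← r3, mul_zero] at hN
      omega
    generalize (Subgroup.centralizer ((P : Subgroup G) : Set G)).relIndex
        (Subgroup.normalizer ((P : Subgroup G) : Set G)) = r at *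
    interval_cases r
    · exact absurd rfl hr0
    · exact absurd rfl r1
    · left; rfl
    · exfalso; revert r2; decide
    · right; rfl
  · rw [r3, mul_comm]
    exact hN

end Cfsg.Agent.Lib.Helper35.Ord4080
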