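import Mathlib
import Cfsg.Agent.Lib.Helper35.Ord4080a

set_option autoImplicit false
set_option linter.unusedSectionVars false

namespace Cfsg.Agent.Lib.Helper35.Ord4080

open Cfsg.Agent.Lib.Helper17

variable {G : Type*} [Group G] [Finite G] [IsSimpleGroup G]

omit [IsSimpleGroup G] in
/-- Counting lemma: if the products `z * t` (`z` of order `p`, `t` related to `z`) lie in `S` and
determine `z`, then `S` has at least `N * K` elements. -/
theorem ncard_prod_ge (p N K : ℕ) (R : G → G → Prop) (S : Set G)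
    (hN : N ≤ Nat.card {z : G // orderOf z = p})
    (hK : ∀ z : G, orderOf z = p → K ≤ Set.ncard {t : G | R z t})
    (hS : ∀ z t : G, orderOf z = p → R z t → z * t ∈ S)
    (hinj : ∀ z t z' t' : G, orderOf z = p → orderOf z' = p → R z t → R z' t' →
      z * t = z' * t' → z = z') :
    N * K ≤ Set.ncard S := by
  classical
  have : Fintype {z : G // orderOf z = p} := Fintype.ofFinite _
  let f : (Σ z : {z : G // orderOf z = p}, {t : G | R z.1 t}) → S :=
    fun a => ⟨a.1.1 * a.2.1, hS _ _ a.1.2 a.2.2⟩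
  have hf : Function.Injective f := by
    rintro ⟨⟨z, hz⟩, ⟨t, ht⟩⟩ ⟨⟨z', hz'⟩, ⟨t', ht'⟩⟩ hxy
    have e : z * t = z' * t' := congrArg Subtype.val hxy
    have hzz : z = z' := hinj z t z' t' hz hz' ht ht' e
    subst hzz
    have htt : t = t' := mul_left_cancel e
    subst htt
    rfl
  have hcard : N * K ≤ Nat.card (Σ z : {z : G // orderOf z = p}, {t : G | R z.1 t}) := by
    rw [Nat.card_sigma]
    calc N * K ≤ Nat.card {z : G // orderOf z = p} * K := Nat.mul_le_mul_right K hN
      _ = ∑ _z : {z : G // orderOf z = p}, K := by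
          rw [Finset.sum_const, Finset.card_univ, smul_eq_mul, Nat.card_eq_fintype_card]
      _ ≤ ∑ z : {z : G // orderOf z = p}, Nat.card {t : G | R z.1 t} := by
          apply Finset.sum_le_sum
          intro z _
          rw [Nat.card_coe_set_eq]
          exact hK z.1 z.2
  rw [← Nat.card_coe_set_eq]
  exact hcard.trans (Nat.card_le_card_of_injective f hf)

omit [IsSimpleGroup G] in
/-- A subgroup of order `2 ^ k * m` (`m` odd, `k ≤ 4`) has at least `2 ^ k` elements with
`t ^ 16 = 1`. -/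
theorem ncard_two_part (C : Subgroup G) (k m : ℕ) (hC : Nat.card C = 2 ^ k * m) (hm : ¬ 2 ∣ m)
    (hk : k ≤ 4) : 2 ^ k ≤ Set.ncard {t : G | t ∈ C ∧ t ^ 16 = 1} := by
  obtain ⟨Q⟩ := (Sylow.nonempty : Nonempty (Sylow 2 C))
  have hQ : Nat.card (Q : Subgroup C) = 2 ^ k := card_sylow_eq_of_card_eq 2 k m hC hm Q
  have hpow : ∀ q : (Q : Subgroup C), (((q : C) : G)) ^ 16 = 1 := by
    intro q
    have h1 : q ^ (2 ^ k) = 1 := by
      rw [← hQ]; exact pow_card_eq_one'
    have h2 : (((q : C) : G)) ^ (2 ^ k) = 1 := by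
      have := congrArg (fun x : (Q : Subgroup C) => ((x : C) : G)) h1
      simpa using this
    obtain ⟨j, hj⟩ : 2 ^ k ∣ 16 := by
      have : (16 : ℕ) = 2 ^ 4 := by norm_num
      rw [this]; exact pow_dvd_pow 2 hk
    rw [hj, pow_mul, h2, one_pow]
  let f : ↥(Q : Subgroup C) → {t : G | t ∈ C ∧ t ^ 16 = 1} :=
    fun q => ⟨((q : C) : G), (q : C).2, hpow q⟩
  have hf : Function.Injective f := by
    intro a b hab
    have : ((a : C) : G) = ((b : C) : G) :=
      congrArg (fun x : {t : G | t ∈ C ∧ t ^ 16 = 1} => (x : G)) hab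
    exact Subtype.ext (Subtype.ext this)
  rw [← hQ, ← Nat.card_coe_set_eq]
  exact Nat.card_le_card_of_injective f hf

omit [Group G] [IsSimpleGroup G] in
/-- Four distinct fibres of a function have total size at most the size of the domain. -/
theorem four_fibres (f : G → ℕ) (a b c d : ℕ) (hab : a ≠ b) (hac : a ≠ c) (had : a ≠ d)
    (hbc : b ≠ c) (hbd : b ≠ d) (hcd : c ≠ d) :
    Set.ncard {g : G | f g = a} + Set.ncard {g : G | f g = b} + Set.ncard {g : G | f g = c} +
      Set.ncard {g : G | f g = d} ≤ Nat.card G := by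
  have d1 : Disjoint {g : G | f g = a} {g : G | f g = b} := by
    rw [Set.disjoint_left]
    intro g h1 h2
    exact hab (h1.symm.trans h2)
  have d2 : Disjoint ({g : G | f g = a} ∪ {g : G | f g = b}) {g : G | f g = c} := by
    rw [Set.disjoint_left]
    rintro g (h1 | h1) h2
    · exact hac (h1.symm.trans h2)
    · exact hbc (h1.symm.trans h2)
  have d3 : Disjoint (({g : G | f g = a} ∪ {g : G | f g = b}) ∪ {g : G | f g = c})
      {g : G | f g = d} := by
    rw [Set.disjoint_left]
    rintro g ((h1 | h1) | h1) h2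
    · exact had (h1.symm.trans h2)
    · exact hbd (h1.symm.trans h2)
    · exact hcd (h1.symm.trans h2)
  have e1 := Set.ncard_union_eq d1
  have e2 := Set.ncard_union_eq d2
  have e3 := Set.ncard_union_eq d3
  have e4 := Set.ncard_le_card ((({g : G | f g = a} ∪ {g : G | f g = b}) ∪ {g : G | f g = c}) ∪
    {g : G | f g = d})
  omega

omit [Finite G] [IsSimpleGroup G] in
theorem pow16_of_pow3 (z : G) (hz : orderOf z = 3) : z ^ 16 = z := by
  have h3 : z ^ 3 = 1 := by rw [← hz]; exact pow_orderOf_eq_one z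
  calc z ^ 16 = (z ^ 3) ^ 5 * z := by group
    _ = z := by rw [h3, one_pow, one_mul]

omit [Finite G] [IsSimpleGroup G] in
theorem pow16_of_pow5 (z : G) (hz : orderOf z = 5) : z ^ 16 = z := by
  have h3 : z ^ 5 = 1 := by rw [← hz]; exact pow_orderOf_eq_one z
  calc z ^ 16 = (z ^ 5) ^ 3 * z := by group
    _ = z := by rw [h3, one_pow, one_mul]

omit [IsSimpleGroup G] in
/-- The fibre count used for the primes 3 and 5. -/
theorem ncard_fibre_ge (p N K : ℕ) (hp : ∀ z : G, orderOf z = p → z ^ 16 = z)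
    (hN : N ≤ Nat.card {z : G // orderOf z = p})
    (hK : ∀ z : G, orderOf z = p →
      K ≤ Set.ncard {t : G | t ∈ Subgroup.centralizer ({z} : Set G) ∧ t ^ 16 = 1}) :
    N * K ≤ Set.ncard {g : G | orderOf (g ^ 16) = p} := by
  have key : ∀ z t : G, orderOf z = p →
      (t ∈ Subgroup.centralizer ({z} : Set G) ∧ t ^ 16 = 1) → (z * t) ^ 16 = z := by
    intro z t hz ht
    have hc : Commute z t := (Subgroup.mem_centralizer_singleton_iff.mp ht.1).symm
    rw [hc.mul_pow, ht.2, mul_one, hp z hz]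
  apply ncard_prod_ge p N K (fun z t => t ∈ Subgroup.centralizer ({z} : Set G) ∧ t ^ 16 = 1)
    _ hN hK
  · intro z t hz ht
    change orderOf ((z * t) ^ 16) = p
    rw [key z t hz ht, hz]
  · intro z t z' t' hz hz' ht ht' e
    rw [← key z t hz ht, ← key z' t' hz' ht', e]

end Cfsg.Agent.Lib.Helper35.Ord4080
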