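import Mathlib
import Cfsg.Agent.Lib.Helper35.Ord4080b

set_option autoImplicit false
set_option linter.unusedSectionVars false

namespace Cfsg.Agent.Lib.Helper35.Ord4080

open Cfsg.Agent.Lib.Helper17

variable {G : Type*} [Group G] [Finite G] [IsSimpleGroup G]

/-- There is an element of order 15 (otherwise there are too many elements). -/
theorem exists_orderOf_15 (h : Nat.card G = 4080) : ∃ g : G, orderOf g = 15 := by
  by_contra hno
  push Not at hno
  have hnc : ∀ z w : G, orderOf z = 3 → orderOf w = 5 → z * w = w * z → False := by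
    intro z w hz hw hzw
    have hc : Commute z w := hzw
    have := hc.orderOf_mul_eq_mul_orderOf_of_coprime (by rw [hz, hw]; decide)
    rw [hz, hw] at this
    exact hno _ this
  -- the fibre over 17
  have h17 : 1920 ≤ Set.ncard {g : G | orderOf (g ^ 16) = 17} := by
    obtain ⟨P⟩ := (Sylow.nonempty : Nonempty (Sylow 17 G))
    have := card_orderOf_eq_prime 17 P (card_sylow17_sub h P)
    rw [card_sylow17 h] at this
    have hsub : {g : G | orderOf g = 17} ⊆ {g : G | orderOf (g ^ 16) = 17} := by
      intro g hg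
      change orderOf (g ^ 16) = 17
      have hg' : orderOf g = 17 := hg
      rw [orderOf_pow, hg']
      decide
    calc 1920 = Set.ncard {g : G | orderOf g = 17} := by
          rw [← Nat.card_coe_set_eq]; exact this.symm
      _ ≤ _ := Set.ncard_le_ncard hsub
  -- the fibre over 1
  have h1 : 1 ≤ Set.ncard {g : G | orderOf (g ^ 16) = 1} := by
    have hsub : ({1} : Set G) ⊆ {g : G | orderOf (g ^ 16) = 1} := by
      intro g hg
      rw [Set.mem_singleton_iff] at hg
      change orderOf (g ^ 16) = 1
      rw [hg, one_pow, orderOf_one]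
    calc 1 = Set.ncard ({1} : Set G) := (Set.ncard_singleton 1).symm
      _ ≤ _ := Set.ncard_le_ncard hsub
  -- the fibre over 3
  have h3 : 1360 ≤ Set.ncard {g : G | orderOf (g ^ 16) = 3} := by
    obtain ⟨P⟩ := (Sylow.nonempty : Nonempty (Sylow 3 G))
    have hO3 := card_orderOf_eq_prime 3 P (card_sylow3_sub h P)
    obtain ⟨z₀, hz₀⟩ := exists_prime_orderOf_dvd_card' (G := G) 3 (by rw [h]; norm_num)
    have hno5 : ∀ z : G, orderOf z = 3 →
        ¬ 5 ∣ Nat.card (Subgroup.centralizer ({z} : Set G)) := by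
      intro z hz hd
      obtain ⟨w, hwC, hw5⟩ := exists_mem_orderOf _ 5 hd
      exact hnc z w hz hw5 (Subgroup.mem_centralizer_singleton_iff.mp hwC).symm
    have hno17 : ∀ z : G, orderOf z = 3 →
        ¬ 17 ∣ Nat.card (Subgroup.centralizer ({z} : Set G)) := by
      intro z hz
      exact not_17_dvd_centralizer h z (by rw [hz]; decide)
    have d₀ := sylow3_data h z₀ hz₀
    have a5 := hno5 z₀ hz₀
    have a17 := hno17 z₀ hz₀
    rcases card_sylow3_cases h with hn | hn | hn | hn | hn | hn
    · rw [hn] at d₀; omega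
    · rw [hn] at d₀; omega
    · -- n₃ = 85, |C(z)| = 24
      have hK : ∀ z : G, orderOf z = 3 →
          8 ≤ Set.ncard {t : G | t ∈ Subgroup.centralizer ({z} : Set G) ∧ t ^ 16 = 1} := by
        intro z hz
        have d := sylow3_data h z hz
        rw [hn] at d
        exact ncard_two_part _ 3 3 (by omega) (by decide) (by norm_num)
      have := ncard_fibre_ge 3 170 8 pow16_of_pow3 (by rw [hO3, hn]) hK
      omega
    · rw [hn] at d₀; omega
    · -- n₃ = 340, |C(z)| = 6
      have hK : ∀ z : G, orderOf z = 3 →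
          2 ≤ Set.ncard {t : G | t ∈ Subgroup.centralizer ({z} : Set G) ∧ t ^ 16 = 1} := by
        intro z hz
        have d := sylow3_data h z hz
        rw [hn] at d
        exact ncard_two_part _ 1 3 (by omega) (by decide) (by norm_num)
      have := ncard_fibre_ge 3 680 2 pow16_of_pow3 (by rw [hO3, hn]) hK
      omega
    · rw [hn] at d₀; omega
  -- the fibre over 5
  have h5 : 816 ≤ Set.ncard {g : G | orderOf (g ^ 16) = 5} := by
    obtain ⟨P⟩ := (Sylow.nonempty : Nonempty (Sylow 5 G))
    have hO5 := card_orderOf_eq_prime 5 P (card_sylow5_sub h P)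
    obtain ⟨w₀, hw₀⟩ := exists_prime_orderOf_dvd_card' (G := G) 5 (by rw [h]; norm_num)
    have hno3 : ∀ w : G, orderOf w = 5 →
        ¬ 3 ∣ Nat.card (Subgroup.centralizer ({w} : Set G)) := by
      intro w hw hd
      obtain ⟨z, hzC, hz3⟩ := exists_mem_orderOf _ 3 hd
      exact hnc z w hz3 hw (Subgroup.mem_centralizer_singleton_iff.mp hzC)
    obtain ⟨r₀, hr₀, d₀⟩ := sylow5_data h w₀ hw₀
    have a3 := hno3 w₀ hw₀
    rcases card_sylow5_cases h with hn | hn | hn
    · -- n₅ = 51
      have hK : ∀ w : G, orderOf w = 5 →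
          4 ≤ Set.ncard {t : G | t ∈ Subgroup.centralizer ({w} : Set G) ∧ t ^ 16 = 1} := by
        intro w hw
        obtain ⟨r, hr, d⟩ := sylow5_data h w hw
        rw [hn] at d
        rcases hr with rfl | rfl
        · have := ncard_two_part (Subgroup.centralizer ({w} : Set G)) 3 5 (by omega) (by decide)
            (by norm_num)
          omega
        · exact ncard_two_part _ 2 5 (by omega) (by decide) (by norm_num)
      have := ncard_fibre_ge 5 204 4 pow16_of_pow5 (by rw [hO5, hn]) hK
      omega
    · rw [hn] at d₀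
      rcases hr₀ with rfl | rfl <;> omega
    · rw [hn] at d₀
      rcases hr₀ with rfl | rfl <;> omega
  have := four_fibres (fun g : G => orderOf (g ^ 16)) 1 3 5 17 (by norm_num) (by norm_num)
    (by norm_num) (by norm_num) (by norm_num) (by norm_num)
  rw [h] at this
  omega

/-- A commuting pair of elements of orders 3 and 5. -/
theorem exists_commuting_pair (h : Nat.card G = 4080) :
    ∃ z w : G, orderOf z = 3 ∧ orderOf w = 5 ∧ z * w = w * z := by
  obtain ⟨g, hg⟩ := exists_orderOf_15 h
  refine ⟨g ^ 5, g ^ 3, ?_, ?_, ?_⟩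
  · rw [orderOf_pow, hg]; decide
  · rw [orderOf_pow, hg]; decide
  · rw [← pow_add, ← pow_add]

theorem card_sylow5 (h : Nat.card G = 4080) : Nat.card (Sylow 5 G) = 136 := by
  obtain ⟨z, w, hz, hw, hzw⟩ := exists_commuting_pair h
  have h3 : 3 ∣ Nat.card (Subgroup.centralizer ({w} : Set G)) := by
    have := Subgroup.orderOf_dvd_natCard _ (Subgroup.mem_centralizer_singleton_iff.mpr hzw)
    rwa [hz] at this
  obtain ⟨r, hr, d⟩ := sylow5_data h w hw
  obtain ⟨c, hc⟩ := h3
  rw [hc] at d
  rcases card_sylow5_cases h with hn | hn | hn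
  · rw [hn] at d
    rcases hr with rfl | rfl <;> omega
  · exact hn
  · rw [hn] at d
    rcases hr with rfl | rfl <;> omega

theorem card_centralizer_order5 (h : Nat.card G = 4080) (w : G) (hw : orderOf w = 5) :
    Nat.card (Subgroup.centralizer ({w} : Set G)) = 15 := by
  obtain ⟨r, hr, d⟩ := sylow5_data h w hw
  rw [card_sylow5 h] at d
  rcases hr with rfl | rfl <;> omega

theorem card_normalizer_sylow5 (h : Nat.card G = 4080) (P : Sylow 5 G) :
    Nat.card (Subgroup.normalizer ((P : Subgroup G) : Set G)) = 30 := by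
  have hN := card_sylow_mul_card_normalizer 5 P
  rw [h, card_sylow5 h] at hN
  omega

/-- The centralizer of an element of order 3 does not have order 60. -/
theorem card_centralizer_order3_ne_60 (h : Nat.card G = 4080) (z : G) (hz : orderOf z = 3) :
    Nat.card (Subgroup.centralizer ({z} : Set G)) ≠ 60 := by
  intro h60
  obtain ⟨P'⟩ := (Sylow.nonempty : Nonempty (Sylow 5 (Subgroup.centralizer ({z} : Set G))))
  have hP' : Nat.card (P' : Subgroup (Subgroup.centralizer ({z} : Set G))) = 5 :=
    card_sylow_eq_of_card_eq 5 1 12 (by rw [h60]; norm_num) (by norm_num) P'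
  have hc := card_sylow_mem_cands (G := Subgroup.centralizer ({z} : Set G)) 5 1 12
    (by rw [h60]; norm_num) (by norm_num)
  have hcl : sylowCands 5 12 = [1, 6] := by decide +kernel
  rw [hcl] at hc
  simp only [List.mem_cons, List.not_mem_nil, or_false] at hc
  have hN := card_sylow_mul_card_normalizer 5 P'
  rw [h60] at hN
  have hzC : z ∈ Subgroup.centralizer ({z} : Set G) :=
    Subgroup.mem_centralizer_singleton_iff.mpr rfl
  have hzN : (⟨z, hzC⟩ : Subgroup.centralizer ({z} : Set G)) ∈ Subgroup.normalizer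
      ((P' : Subgroup (Subgroup.centralizer ({z} : Set G))) : Set (Subgroup.centralizer ({z} : Set G))) := by
    rw [Subgroup.mem_normalizer_iff]
    intro x
    have : (⟨z, hzC⟩ : Subgroup.centralizer ({z} : Set G)) * x *
        (⟨z, hzC⟩ : Subgroup.centralizer ({z} : Set G))⁻¹ = x := by
      apply Subtype.ext
      have hx := Subgroup.mem_centralizer_singleton_iff.mp x.2
      change z * (x : G) * z⁻¹ = (x : G)
      rw [← hx, mul_inv_cancel_right]
    rw [this]
  have h3N : 3 ∣ Nat.card (Subgroup.normalizer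
      ((P' : Subgroup (Subgroup.centralizer ({z} : Set G))) : Set (Subgroup.centralizer ({z} : Set G)))) := by
    have := Subgroup.orderOf_dvd_natCard _ hzN
    rwa [Subgroup.orderOf_mk, hz] at this
  have hn1 : Nat.card (Sylow 5 (Subgroup.centralizer ({z} : Set G))) = 1 := by
    rcases hc with hc | hc
    · exact hc
    · rw [hc] at hN; omega
  have hsub : Subsingleton (Sylow 5 (Subgroup.centralizer ({z} : Set G))) :=
    (Nat.card_eq_one_iff_unique.mp hn1).1
  have hnorm : (P' : Subgroup (Subgroup.centralizer ({z} : Set G))).Normal :=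
    Sylow.normal_of_subsingleton P'
  obtain ⟨w', hw'P, hw'5⟩ := exists_mem_orderOf
    (P' : Subgroup (Subgroup.centralizer ({z} : Set G))) 5 (by rw [hP'])
  have hw5 : orderOf (w' : G) = 5 := by rw [Subgroup.orderOf_coe]; exact hw'5
  have hw'1 : w' ≠ 1 := by
    rintro rfl
    rw [orderOf_one] at hw'5; omega
  have hw1 : (w' : G) ≠ 1 := by
    intro h1
    rw [h1, orderOf_one] at hw5; omega
  have hpg : IsPGroup 5 (Subgroup.zpowers (w' : G)) := by
    apply IsPGroup.of_card (n := 1)
    rw [Nat.card_zpowers, hw5, pow_one]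
  obtain ⟨P5, hP5le⟩ := hpg.exists_le_sylow
  have hwP5 : (w' : G) ∈ (P5 : Subgroup G) := hP5le (Subgroup.mem_zpowers _)
  have hP5z := zpowers_eq_of_mem_of_card_prime (by norm_num : Nat.Prime 5) (P5 : Subgroup G)
    (card_sylow5_sub h P5) (w' : G) hwP5 hw1
  have hP'z := zpowers_eq_of_mem_of_card_prime (by norm_num : Nat.Prime 5)
    (P' : Subgroup (Subgroup.centralizer ({z} : Set G))) hP' w' hw'P hw'1
  have hconj : ∀ c ∈ Subgroup.centralizer ({z} : Set G), ∀ x ∈ (P5 : Subgroup G),
      c * x * c⁻¹ ∈ (P5 : Subgroup G) := by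
    intro c hc x hx
    rw [← hP5z] at hx ⊢
    obtain ⟨k, rfl⟩ := Subgroup.mem_zpowers_iff.mp hx
    have h1 : (⟨c, hc⟩ : Subgroup.centralizer ({z} : Set G)) * w' *
        (⟨c, hc⟩ : Subgroup.centralizer ({z} : Set G))⁻¹ ∈
        (P' : Subgroup (Subgroup.centralizer ({z} : Set G))) := hnorm.conj_mem w' hw'P ⟨c, hc⟩
    rw [← hP'z] at h1
    obtain ⟨j, hj⟩ := Subgroup.mem_zpowers_iff.mp h1
    have h2 : c * (w' : G) * c⁻¹ = (w' : G) ^ j := by
      have := congrArg (fun x : Subgroup.centralizer ({z} : Set G) => (x : G)) hj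
      simpa using this.symm
    rw [← conj_zpow, h2]
    exact zpow_mem (zpow_mem (Subgroup.mem_zpowers _) j) k
  have hCN : Subgroup.centralizer ({z} : Set G) ≤
      Subgroup.normalizer ((P5 : Subgroup G) : Set G) := by
    intro c hc
    rw [Subgroup.mem_normalizer_iff]
    intro x
    refine ⟨hconj c hc x, fun hx => ?_⟩
    have := hconj c⁻¹ (inv_mem hc) _ hx
    simpa [mul_assoc] using this
  have := Subgroup.card_dvd_of_le hCN
  rw [h60, card_normalizer_sylow5 h P5] at this
  norm_num at this

theorem card_sylow3 (h : Nat.card G = 4080) : Nat.card (Sylow 3 G) = 136 := by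
  obtain ⟨z, w, hz, hw, hzw⟩ := exists_commuting_pair h
  have h5 : 5 ∣ Nat.card (Subgroup.centralizer ({z} : Set G)) := by
    have := Subgroup.orderOf_dvd_natCard _ (Subgroup.mem_centralizer_singleton_iff.mpr hzw.symm)
    rwa [hw] at this
  have d := sylow3_data h z hz
  have hne := card_centralizer_order3_ne_60 h z hz
  obtain ⟨c, hc⟩ := h5
  rw [hc] at d hne
  rcases card_sylow3_cases h with hn | hn | hn | hn | hn | hn
  · rw [hn] at d; omega
  · rw [hn] at d; omega
  · rw [hn] at d; omega
  · exact hn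
  · rw [hn] at d; omega
  · rw [hn] at d; omega

theorem card_centralizer_order3 (h : Nat.card G = 4080) (z : G) (hz : orderOf z = 3) :
    Nat.card (Subgroup.centralizer ({z} : Set G)) = 15 := by
  have d := sylow3_data h z hz
  rw [card_sylow3 h] at d
  omega

end Cfsg.Agent.Lib.Helper35.Ord4080
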