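import Mathlib
import Cfsg.Agent.Lib.Helper35.Ord4080c

set_option autoImplicit false
set_option linter.unusedSectionVars false

namespace Cfsg.Agent.Lib.Helper35.Ord4080

open Cfsg.Agent.Lib.Helper17

variable {G : Type*} [Group G] [Finite G] [IsSimpleGroup G]

/-- The centralizer of an involution has order dividing 16. -/
theorem card_centralizer_involution_dvd (h : Nat.card G = 4080) (x : G) (hx : orderOf x = 2) :
    Nat.card (Subgroup.centralizer ({x} : Set G)) ∣ 16 := by
  have h1 : Nat.card (Subgroup.centralizer ({x} : Set G)) ∣ 4080 :=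
    h ▸ Subgroup.card_subgroup_dvd_card _
  have h3 : ¬ 3 ∣ Nat.card (Subgroup.centralizer ({x} : Set G)) := by
    intro hd
    obtain ⟨c, hcC, hc3⟩ := exists_mem_orderOf _ 3 hd
    have hxc : x ∈ Subgroup.centralizer ({c} : Set G) :=
      Subgroup.mem_centralizer_singleton_iff.mpr (Subgroup.mem_centralizer_singleton_iff.mp hcC).symm
    have := Subgroup.orderOf_dvd_natCard _ hxc
    rw [card_centralizer_order3 h c hc3, hx] at this
    norm_num at this
  have h5 : ¬ 5 ∣ Nat.card (Subgroup.centralizer ({x} : Set G)) := by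
    intro hd
    obtain ⟨c, hcC, hc5⟩ := exists_mem_orderOf _ 5 hd
    have hxc : x ∈ Subgroup.centralizer ({c} : Set G) :=
      Subgroup.mem_centralizer_singleton_iff.mpr (Subgroup.mem_centralizer_singleton_iff.mp hcC).symm
    have := Subgroup.orderOf_dvd_natCard _ hxc
    rw [card_centralizer_order5 h c hc5, hx] at this
    norm_num at this
  have h17 := not_17_dvd_centralizer h x (by rw [hx]; decide)
  have hcop : Nat.Coprime (Nat.card (Subgroup.centralizer ({x} : Set G))) 255 := by
    have e : (255 : ℕ) = 3 * (5 * 17) := by norm_num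
    rw [e]
    apply Nat.Coprime.mul_right
    · rw [Nat.coprime_comm, Nat.Prime.coprime_iff_not_dvd (by norm_num)]
      exact h3
    · apply Nat.Coprime.mul_right
      · rw [Nat.coprime_comm, Nat.Prime.coprime_iff_not_dvd (by norm_num)]
        exact h5
      · rw [Nat.coprime_comm, Nat.Prime.coprime_iff_not_dvd (by norm_num)]
        exact h17
  have e : (4080 : ℕ) = 16 * 255 := by norm_num
  rw [e] at h1
  exact hcop.dvd_of_dvd_mul_right h1

/-- There are at least 1088 elements of order 15. -/
theorem ncard_order15_ge (h : Nat.card G = 4080) :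
    1088 ≤ Set.ncard {g : G | orderOf g = 15} := by
  obtain ⟨P⟩ := (Sylow.nonempty : Nonempty (Sylow 5 G))
  have hO5 := card_orderOf_eq_prime 5 P (card_sylow5_sub h P)
  rw [card_sylow5 h] at hO5
  have key : ∀ w z : G, orderOf w = 5 →
      (z ∈ Subgroup.centralizer ({w} : Set G) ∧ orderOf z = 3) → (w * z) ^ 6 = w := by
    intro w z hw hz
    have hc : Commute w z := (Subgroup.mem_centralizer_singleton_iff.mp hz.1).symm
    have h5 : w ^ 5 = 1 := by rw [← hw]; exact pow_orderOf_eq_one w
    have h3 : z ^ 3 = 1 := by rw [← hz.2]; exact pow_orderOf_eq_one z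
    rw [hc.mul_pow]
    calc w ^ 6 * z ^ 6 = (w ^ 5 * w) * (z ^ 3) ^ 2 := by group
      _ = w := by rw [h5, h3, one_mul, one_pow, mul_one]
  have := ncard_prod_ge 5 544 2
    (fun w z => z ∈ Subgroup.centralizer ({w} : Set G) ∧ orderOf z = 3)
    {g : G | orderOf g = 15} (by rw [hO5]) ?_ ?_ ?_
  · omega
  · intro w hw
    obtain ⟨z, hzC, hz3⟩ := exists_mem_orderOf (Subgroup.centralizer ({w} : Set G)) 3
      (by rw [card_centralizer_order5 h w hw]; norm_num)
    have hne : z ≠ z⁻¹ := by
      intro he
      have h2 : z ^ 2 = 1 := by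
        rw [pow_two]; nth_rewrite 1 [he]; exact inv_mul_cancel z
      have h3 : z ^ 3 = 1 := by rw [← hz3]; exact pow_orderOf_eq_one z
      have : z = 1 := by
        calc z = z ^ 3 * (z ^ 2)⁻¹ := by group
          _ = 1 := by rw [h3, h2]; group
      rw [this, orderOf_one] at hz3
      omega
    have hsub : ({z, z⁻¹} : Set G) ⊆
        {t : G | t ∈ Subgroup.centralizer ({w} : Set G) ∧ orderOf t = 3} := by
      rintro t (rfl | rfl)
      · exact ⟨hzC, hz3⟩
      · exact ⟨inv_mem hzC, by rw [orderOf_inv]; exact hz3⟩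
    calc 2 = Set.ncard ({z, z⁻¹} : Set G) := (Set.ncard_pair hne).symm
      _ ≤ _ := Set.ncard_le_ncard hsub
  · intro w z hw hz
    have hc : Commute w z := (Subgroup.mem_centralizer_singleton_iff.mp hz.1).symm
    have := hc.orderOf_mul_eq_mul_orderOf_of_coprime (by rw [hw, hz.2]; decide)
    rw [hw, hz.2] at this
    exact this
  · intro w z w' z' hw hw' hz hz' e
    rw [← key w z hw hz, ← key w' z' hw' hz', e]

omit [Group G] [IsSimpleGroup G] in
/-- Five distinct fibres of a function have total size at most the size of the domain. -/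
theorem five_fibres (f : G → ℕ) (a b c d e : ℕ) (hab : a ≠ b) (hac : a ≠ c) (had : a ≠ d)
    (hae : a ≠ e) (hbc : b ≠ c) (hbd : b ≠ d) (hbe : b ≠ e) (hcd : c ≠ d) (hce : c ≠ e)
    (hde : d ≠ e) :
    Set.ncard {g : G | f g = a} + Set.ncard {g : G | f g = b} + Set.ncard {g : G | f g = c} +
      Set.ncard {g : G | f g = d} + Set.ncard {g : G | f g = e} ≤ Nat.card G := by
  have d1 : Disjoint {g : G | f g = a} {g : G | f g = b} := by
    rw [Set.disjoint_left]
    intro g h1 h2
    exact hab (h1.symm.trans h2)
  have d2 : Disjoint ({g : G | f g = a} ∪ {g : G | f g = b}) {g : G | f g = c} := by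
    rw [Set.disjoint_left]
    rintro g (h1 | h1) h2
    · exact hac (h1.symm.trans h2)
    · exact hbc (h1.symm.trans h2)
  have d3 : Disjoint (({g : G | f g = a} ∪ {g : G | f g = b}) ∪ {g : G | f g = c})
      {g : G | f g = d} := by
    rw [Set.disjoint_left]
    rintro g ((h1 | h1) | h1) h2
    · exact had (h1.symm.trans h2)
    · exact hbd (h1.symm.trans h2)
    · exact hcd (h1.symm.trans h2)
  have d4 : Disjoint ((({g : G | f g = a} ∪ {g : G | f g = b}) ∪ {g : G | f g = c}) ∪
      {g : G | f g = d}) {g : G | f g = e} := by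
    rw [Set.disjoint_left]
    rintro g (((h1 | h1) | h1) | h1) h2
    · exact hae (h1.symm.trans h2)
    · exact hbe (h1.symm.trans h2)
    · exact hce (h1.symm.trans h2)
    · exact hde (h1.symm.trans h2)
  have e1 := Set.ncard_union_eq d1
  have e2 := Set.ncard_union_eq d2
  have e3 := Set.ncard_union_eq d3
  have e4 := Set.ncard_union_eq d4
  have e5 := Set.ncard_le_card (((({g : G | f g = a} ∪ {g : G | f g = b}) ∪ {g : G | f g = c}) ∪
    {g : G | f g = d}) ∪ {g : G | f g = e})
  omega

/-- There are at most 256 elements with `g ^ 16 = 1`. -/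
theorem ncard_two_elements_le (h : Nat.card G = 4080) :
    Set.ncard {g : G | g ^ 16 = 1} ≤ 256 := by
  classical
  have h17 : Set.ncard {g : G | orderOf g = 17} = 1920 := by
    obtain ⟨P⟩ := (Sylow.nonempty : Nonempty (Sylow 17 G))
    have := card_orderOf_eq_prime 17 P (card_sylow17_sub h P)
    rw [card_sylow17 h] at this
    rw [← Nat.card_coe_set_eq]; exact this
  have h3 : Set.ncard {g : G | orderOf g = 3} = 272 := by
    obtain ⟨P⟩ := (Sylow.nonempty : Nonempty (Sylow 3 G))
    have := card_orderOf_eq_prime 3 P (card_sylow3_sub h P)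
    rw [card_sylow3 h] at this
    rw [← Nat.card_coe_set_eq]; exact this
  have h5 : Set.ncard {g : G | orderOf g = 5} = 544 := by
    obtain ⟨P⟩ := (Sylow.nonempty : Nonempty (Sylow 5 G))
    have := card_orderOf_eq_prime 5 P (card_sylow5_sub h P)
    rw [card_sylow5 h] at this
    rw [← Nat.card_coe_set_eq]; exact this
  have h15 := ncard_order15_ge h
  have hf := five_fibres (fun g : G => if g ^ 16 = 1 then 0 else orderOf g) 0 3 5 15 17
    (by norm_num) (by norm_num) (by norm_num) (by norm_num) (by norm_num) (by norm_num)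
    (by norm_num) (by norm_num) (by norm_num) (by norm_num)
  rw [h] at hf
  have hpos : ∀ g : G, 0 < orderOf g := fun g => orderOf_pos g
  have e0 : {g : G | (if g ^ 16 = 1 then 0 else orderOf g) = 0} = {g : G | g ^ 16 = 1} := by
    ext g
    simp only [Set.mem_ofPred_eq]
    constructor
    · intro hg
      by_contra hne
      rw [if_neg hne] at hg
      exact (hpos g).ne' hg
    · intro hg
      rw [if_pos hg]
  have ek : ∀ k : ℕ, k ≠ 0 → ¬ k ∣ 16 →
      {g : G | (if g ^ 16 = 1 then 0 else orderOf g) = k} = {g : G | orderOf g = k} := by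
    intro k hk0 hk16
    ext g
    simp only [Set.mem_ofPred_eq]
    constructor
    · intro hg
      by_cases h16 : g ^ 16 = 1
      · rw [if_pos h16] at hg
        exact absurd hg.symm hk0
      · rw [if_neg h16] at hg
        exact hg
    · intro hg
      have h16 : g ^ 16 ≠ 1 := by
        intro h16
        have := orderOf_dvd_of_pow_eq_one h16
        rw [hg] at this
        exact hk16 this
      rw [if_neg h16]
      exact hg
  rw [e0, ek 3 (by norm_num) (by norm_num), ek 5 (by norm_num) (by norm_num),
    ek 15 (by norm_num) (by norm_num), ek 17 (by norm_num) (by norm_num)] at hf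
  omega

end Cfsg.Agent.Lib.Helper35.Ord4080
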