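import Mathlib
import Cfsg.Agent.Lib.Helper35.Ord4080d

set_option autoImplicit false
set_option linter.unusedSectionVars false

namespace Cfsg.Agent.Lib.Helper35.Ord4080

open Cfsg.Agent.Lib.Helper17

variable {G : Type*} [Group G] [Finite G] [IsSimpleGroup G]

/-- Involutions have centralizers of order 16 and every 2-element is an involution or 1. -/
theorem involution_facts (h : Nat.card G = 4080) (x : G) (hx : orderOf x = 2) :
    Nat.card (Subgroup.centralizer ({x} : Set G)) = 16 ∧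
      ∀ g : G, g ^ 16 = 1 → g ^ 2 = 1 := by
  have hx2 : x ^ 2 = 1 := by rw [← hx]; exact pow_orderOf_eq_one x
  have hx1 : x ≠ 1 := by
    rintro rfl
    rw [orderOf_one] at hx; omega
  have hsub : insert (1 : G) {g : G | IsConj x g} ⊆ {g : G | g ^ 16 = 1} := by
    rintro g (rfl | hg)
    · exact one_pow 16
    · obtain ⟨c, hc⟩ := isConj_iff.mp hg
      have hg2 : g ^ 2 = 1 := by
        rw [← hc, conj_pow, hx2]; group
      calc g ^ 16 = (g ^ 2) ^ 8 := by group
        _ = 1 := by rw [hg2, one_pow]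
  have h1not : (1 : G) ∉ {g : G | IsConj x g} := by
    intro hg
    obtain ⟨c, hc⟩ := isConj_iff.mp hg
    apply hx1
    calc x = c⁻¹ * (c * x * c⁻¹) * c := by group
      _ = 1 := by rw [hc]; group
  have hins := Set.ncard_insert_of_notMem h1not
  have hle := (Set.ncard_le_ncard hsub).trans (ncard_two_elements_le h)
  have hcl := card_isConj_mul_card_centralizer x
  rw [h] at hcl
  have hcl' : Set.ncard {g : G | IsConj x g} * Nat.card (Subgroup.centralizer ({x} : Set G)) =
      4080 := by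
    rw [← Nat.card_coe_set_eq]; exact hcl
  have hd := card_centralizer_involution_dvd h x hx
  have hd16 := Nat.le_of_dvd (by norm_num) hd
  have hC : Nat.card (Subgroup.centralizer ({x} : Set G)) = 16 := by nlinarith
  refine ⟨hC, ?_⟩
  rw [hC] at hcl'
  have hcl255 : Set.ncard {g : G | IsConj x g} = 255 := by omega
  have heq := Set.eq_of_subset_of_ncard_le hsub
    (by rw [hins, hcl255]; exact ncard_two_elements_le h)
  intro g hg16
  have hg : g ∈ insert (1 : G) {g : G | IsConj x g} := by rw [heq]; exact hg16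
  rcases hg with rfl | hg
  · exact one_pow 2
  · obtain ⟨c, hc⟩ := isConj_iff.mp hg
    rw [← hc, conj_pow, hx2]; group

theorem sq_eq_one_of_pow_sixteen (h : Nat.card G = 4080) (g : G) (hg : g ^ 16 = 1) :
    g ^ 2 = 1 := by
  obtain ⟨x, hx⟩ := exists_prime_orderOf_dvd_card' (G := G) 2 (by rw [h]; norm_num)
  exact (involution_facts h x hx).2 g hg

theorem sylow2_sq (h : Nat.card G = 4080) (S : Sylow 2 G) (g : G) (hg : g ∈ (S : Subgroup G)) :
    g * g = 1 := by
  have h16 : g ^ 16 = 1 := by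
    have := Subgroup.orderOf_dvd_natCard _ hg
    rw [card_sylow2_sub h S] at this
    exact orderOf_dvd_iff_pow_eq_one.mp this
  rw [← pow_two]
  exact sq_eq_one_of_pow_sixteen h g h16

theorem sylow2_comm (h : Nat.card G = 4080) (S : Sylow 2 G) {a b : G}
    (ha : a ∈ (S : Subgroup G)) (hb : b ∈ (S : Subgroup G)) : a * b = b * a := by
  have h1 := sylow2_sq h S a ha
  have h2 := sylow2_sq h S b hb
  have h3 := sylow2_sq h S (a * b) (mul_mem ha hb)
  have e1 : a⁻¹ = a := inv_eq_of_mul_eq_one_left h1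
  have e2 : b⁻¹ = b := inv_eq_of_mul_eq_one_left h2
  have e3 : (a * b)⁻¹ = a * b := inv_eq_of_mul_eq_one_left h3
  rw [← e3, mul_inv_rev, e1, e2]

/-- The centralizer of a nontrivial element of a Sylow 2-subgroup is that subgroup. -/
theorem centralizer_eq_sylow2 (h : Nat.card G = 4080) (S : Sylow 2 G) (x : G)
    (hx : x ∈ (S : Subgroup G)) (hx1 : x ≠ 1) :
    Subgroup.centralizer ({x} : Set G) = (S : Subgroup G) := by
  have hSC : (S : Subgroup G) ≤ Subgroup.centralizer ({x} : Set G) := fun q hq =>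
    Subgroup.mem_centralizer_singleton_iff.mpr (sylow2_comm h S hq hx)
  have hx2 : orderOf x = 2 := by
    apply orderOf_eq_prime
    · rw [pow_two]; exact sylow2_sq h S x hx
    · exact hx1
  have hC := (involution_facts h x hx2).1
  exact (Subgroup.eq_of_le_of_card_ge hSC (by rw [hC, card_sylow2_sub h S])).symm

/-- Distinct Sylow 2-subgroups intersect trivially. -/
theorem sylow2_TI (h : Nat.card G = 4080) (S₁ S₂ : Sylow 2 G) (x : G)
    (hx₁ : x ∈ (S₁ : Subgroup G)) (hx₂ : x ∈ (S₂ : Subgroup G)) (hx : x ≠ 1) : S₁ = S₂ := by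
  apply Sylow.ext
  rw [← centralizer_eq_sylow2 h S₁ x hx₁ hx, ← centralizer_eq_sylow2 h S₂ x hx₂ hx]

theorem card_sylow2 (h : Nat.card G = 4080) : Nat.card (Sylow 2 G) = 17 := by
  classical
  have hc := card_sylow_mem_cands (G := G) 2 4 255 (by rw [h]; norm_num) (by norm_num)
  have hcl : sylowCands 2 255 = [1, 3, 5, 15, 17, 51, 85, 255] := by decide +kernel
  rw [hcl] at hc
  simp only [List.mem_cons, List.not_mem_nil, or_false] at hc
  have hne1 : Nat.card (Sylow 2 G) ≠ 1 :=
    card_sylow_ne_one 2 (by rw [h]; norm_num) 3 (by norm_num) (by norm_num) (by rw [h]; norm_num)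
  have hge := card_sylow_ge h 2 hne1
  -- count the nontrivial elements of the Sylow 2-subgroups
  have : Fintype (Sylow 2 G) := Fintype.ofFinite _
  let f : (Σ S : Sylow 2 G, {x : (S : Subgroup G) // x ≠ 1}) → {g : G | g ^ 16 = 1} :=
    fun a => ⟨(a.2.1 : G), by
      have := Subgroup.orderOf_dvd_natCard _ a.2.1.2
      rw [card_sylow2_sub h a.1] at this
      exact orderOf_dvd_iff_pow_eq_one.mp this⟩
  have hf : Function.Injective f := by
    rintro ⟨Q1, x1, hx1⟩ ⟨Q2, x2, hx2⟩ hxy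
    have e : (x1 : G) = (x2 : G) := congrArg Subtype.val hxy
    have hQ : Q1 = Q2 :=
      sylow2_TI h Q1 Q2 x1 x1.2 (e ▸ x2.2) (fun h1 => hx1 (Subtype.ext h1))
    subst hQ
    have : x1 = x2 := Subtype.ext e
    subst this
    rfl
  have hcard : Nat.card (Σ S : Sylow 2 G, {x : (S : Subgroup G) // x ≠ 1}) =
      Nat.card (Sylow 2 G) * 15 := by
    rw [Nat.card_sigma]
    have : ∀ Q : Sylow 2 G, Nat.card {x : (Q : Subgroup G) // x ≠ 1} = 15 := by
      intro Q
      have h1 := Nat.card_congr (Equiv.optionSubtypeNe (1 : ↥(Q : Subgroup G)))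
      rw [Finite.card_option, card_sylow2_sub h Q] at h1
      omega
    simp only [this, Finset.sum_const, Finset.card_univ, smul_eq_mul]
    rw [← Nat.card_eq_fintype_card]
  have hle := Nat.card_le_card_of_injective f hf
  rw [hcard, Nat.card_coe_set_eq] at hle
  have := ncard_two_elements_le h
  omega

/-- A Sylow 2-subgroup acts freely on the other Sylow 2-subgroups. -/
theorem smul_sylow_inj (h : Nat.card G = 4080) (S₁ S₂ : Sylow 2 G) (hne : S₁ ≠ S₂) (s s' : G)
    (hs : s ∈ (S₁ : Subgroup G)) (hs' : s' ∈ (S₁ : Subgroup G)) (e : s • S₂ = s' • S₂) :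
    s = s' := by
  have h4 : (s⁻¹ * s') • S₂ = S₂ := by
    rw [mul_smul, ← e, inv_smul_smul]
  have hN : s⁻¹ * s' ∈ Subgroup.normalizer ((S₂ : Subgroup G) : Set G) :=
    Sylow.smul_eq_iff_mem_normalizer.mp h4
  have h3 : s⁻¹ * s' ∈ (S₁ : Subgroup G) ⊓ Subgroup.normalizer ((S₂ : Subgroup G) : Set G) :=
    Subgroup.mem_inf.mpr ⟨mul_mem (inv_mem hs) hs', hN⟩
  have h5 : (S₁ : Subgroup G) ⊓ Subgroup.normalizer ((S₂ : Subgroup G) : Set G)
      = (S₁ : Subgroup G) ⊓ (S₂ : Subgroup G) := S₁.2.inf_normalizer_sylow S₂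
  rw [h5] at h3
  by_contra hss
  have hne1 : s⁻¹ * s' ≠ 1 := fun h1 => hss (inv_mul_eq_one.mp h1)
  exact hne (sylow2_TI h S₁ S₂ _ (Subgroup.mem_inf.mp h3).1 (Subgroup.mem_inf.mp h3).2 hne1)

/-- A Sylow 2-subgroup acts transitively on the other Sylow 2-subgroups. -/
theorem exists_smul_eq_of_ne (h : Nat.card G = 4080) (S₁ S₂ S₃ : Sylow 2 G) (h12 : S₁ ≠ S₂)
    (h13 : S₁ ≠ S₃) : ∃ s ∈ (S₁ : Subgroup G), s • S₂ = S₃ := by
  classical
  have hfix : ∀ y : G, y ∈ (S₁ : Subgroup G) → y • S₁ = S₁ := fun y hy =>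
    Sylow.smul_eq_iff_mem_normalizer.mpr (Subgroup.le_normalizer hy)
  let f : ↥(S₁ : Subgroup G) → {Q : Sylow 2 G // Q ≠ S₁} := fun y =>
    ⟨(y : G) • S₂, fun hh => h12 (by
      have := congrArg (fun Q => (y : G)⁻¹ • Q) hh
      simp only [inv_smul_smul] at this
      rw [this, hfix _ (inv_mem y.2)])⟩
  have hinj : Function.Injective f := by
    intro y y' hyy
    have h3 : (y : G) • S₂ = (y' : G) • S₂ := congrArg Subtype.val hyy
    exact Subtype.ext (smul_sylow_inj h S₁ S₂ h12 _ _ y.2 y'.2 h3)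
  have hcard : Nat.card {Q : Sylow 2 G // Q ≠ S₁} ≤ Nat.card ↥(S₁ : Subgroup G) := by
    have := Nat.card_congr (Equiv.optionSubtypeNe S₁)
    rw [Finite.card_option, card_sylow2 h] at this
    rw [card_sylow2_sub h S₁]
    omega
  obtain ⟨y, hy⟩ := (hinj.bijective_of_nat_card_le hcard).2 ⟨S₃, fun hh => h13 hh.symm⟩
  exact ⟨(y : G), y.2, congrArg Subtype.val hy⟩

theorem injective_toPermHom (h : Nat.card G = 4080) :
    Function.Injective (MulAction.toPermHom G (Sylow 2 G)) := by
  rw [← MonoidHom.ker_eq_bot_iff]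
  rcases (MonoidHom.normal_ker (MulAction.toPermHom G (Sylow 2 G))).eq_bot_or_eq_top with hk | hk
  · exact hk
  · exfalso
    obtain ⟨S⟩ := (Sylow.nonempty : Nonempty (Sylow 2 G))
    have hne1 : Nat.card (Sylow 2 G) ≠ 1 := by rw [card_sylow2 h]; norm_num
    apply normalizer_sylow_ne_top 2 S hne1
    rw [eq_top_iff]
    intro g _
    have hg : g ∈ (MulAction.toPermHom G (Sylow 2 G)).ker := by rw [hk]; trivial
    rw [MonoidHom.mem_ker] at hg
    have : g • S = S := by
      have := congrArg (fun σ : Equiv.Perm (Sylow 2 G) => σ S) hg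
      simpa using this
    exact Sylow.smul_eq_iff_mem_normalizer.mp this

/-- An element normalizing three distinct Sylow 2-subgroups is trivial. -/
theorem eq_one_of_fix_three (h : Nat.card G = 4080) (g : G) (S₁ S₂ S₃ : Sylow 2 G)
    (h12 : S₁ ≠ S₂) (h13 : S₁ ≠ S₃) (h23 : S₂ ≠ S₃)
    (h1 : g • S₁ = S₁) (h2 : g • S₂ = S₂) (h3 : g • S₃ = S₃) : g = 1 := by
  by_contra hg
  have hord : orderOf g ≠ 1 := fun h1 => hg (orderOf_eq_one_iff.mp h1)
  obtain ⟨p, hp, hpd⟩ := Nat.exists_prime_and_dvd hord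
  have hpos : 0 < orderOf g := orderOf_pos g
  have hup : orderOf (g ^ (orderOf g / p)) = p := orderOf_pow_orderOf_div hpos.ne' hpd
  have hfix : ∀ S : Sylow 2 G, g • S = S → (g ^ (orderOf g / p)) • S = S := by
    intro S hS
    have : g ∈ MulAction.stabilizer G S := hS
    exact pow_mem this _
  generalize g ^ (orderOf g / p) = u at hup hfix
  have hu1 := hfix S₁ h1
  have hu2 := hfix S₂ h2
  have hu3 := hfix S₃ h3
  have hune : u ≠ 1 := by
    rintro rfl
    rw [orderOf_one] at hup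
    exact hp.one_lt.ne hup
  by_cases hp2 : p = 2
  · subst hp2
    have hm1 : u ∈ (S₁ : Subgroup G) :=
      mem_sylow_of_mem_normalizer_of_orderOf 2 S₁ u
        (Sylow.smul_eq_iff_mem_normalizer.mp hu1) 1 (by rw [hup, pow_one])
    have hm2 : u ∈ (S₂ : Subgroup G) :=
      mem_sylow_of_mem_normalizer_of_orderOf 2 S₂ u
        (Sylow.smul_eq_iff_mem_normalizer.mp hu2) 1 (by rw [hup, pow_one])
    exact h12 (sylow2_TI h S₁ S₂ u hm1 hm2 hune)
  · obtain ⟨s, hs, hs23⟩ := exists_smul_eq_of_ne h S₁ S₂ S₃ h12 h13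
    have hs1 : s ≠ 1 := by
      rintro rfl
      rw [one_smul] at hs23
      exact h23 hs23
    have hus : u * s * u⁻¹ ∈ (S₁ : Subgroup G) :=
      (Subgroup.mem_normalizer_iff.mp (Sylow.smul_eq_iff_mem_normalizer.mp hu1) s).mp hs
    have hus23 : (u * s * u⁻¹) • S₂ = S₃ := by
      rw [mul_smul, mul_smul]
      have : u⁻¹ • S₂ = S₂ := by
        conv_lhs => rw [← hu2]
        rw [inv_smul_smul]
      rw [this, hs23, hu3]
    have heq : u * s * u⁻¹ = s :=
      smul_sylow_inj h S₁ S₂ h12 _ _ hus hs (hus23.trans hs23.symm)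
    have huC : u ∈ Subgroup.centralizer ({s} : Set G) := by
      rw [Subgroup.mem_centralizer_singleton_iff]
      calc u * s = (u * s * u⁻¹) * u := by group
        _ = s * u := by rw [heq]
    rw [centralizer_eq_sylow2 h S₁ s hs hs1] at huC
    have := Subgroup.orderOf_dvd_natCard _ huC
    rw [card_sylow2_sub h S₁, hup] at this
    have e : (16 : ℕ) = 2 ^ 4 := by norm_num
    rw [e] at this
    exact hp2 ((Nat.prime_dvd_prime_iff_eq hp Nat.prime_two).mp (hp.dvd_of_dvd_pow this))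

end Cfsg.Agent.Lib.Helper35.Ord4080
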