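import Mathlib
import Cfsg.Agent.Lib.Helper17.Small
import Cfsg.Agent.Lib.Helper17.PrimeDegree

set_option autoImplicit false

namespace Cfsg.Agent.Lib.Helper35.Ord504

open Cfsg.Agent.Lib.Helper17

variable {G : Type*} [Group G] [Finite G] [IsSimpleGroup G]

omit [Group G] [Finite G] [IsSimpleGroup G] in
theorem not_prime_504 (h : Nat.card G = 504) : ¬ (Nat.card G).Prime := by
  rw [h]; norm_num

instance fact_prime_seven : Fact (Nat.Prime 7) := ⟨by norm_num⟩

/-- The number of Sylow 7-subgroups is 8 or 36. -/
theorem card_sylow7_cases (h : Nat.card G = 504) :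
    Nat.card (Sylow 7 G) = 8 ∨ Nat.card (Sylow 7 G) = 36 := by
  have hc := card_sylow_mem_cands (G := G) 7 1 72 (by rw [h]; norm_num) (by norm_num)
  have hcl : sylowCands 7 72 = [1, 8, 36] := by decide +kernel
  rw [hcl] at hc
  simp only [List.mem_cons, List.not_mem_nil, or_false] at hc
  rcases hc with hc | hc | hc
  · exact absurd hc (card_sylow_ne_one 7 (by rw [h]; norm_num) 2 (by norm_num) (by norm_num)
      (by rw [h]; norm_num))
  · exact Or.inl hc
  · exact Or.inr hc

/-- Proper subgroups have index at least 8. -/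
theorem index_ge (h : Nat.card G = 504) (H : Subgroup G) (hH : H ≠ ⊤) : 8 ≤ H.index := by
  have h1 := two_mul_card_dvd_factorial_index (not_prime_504 h) H hH
  rw [h] at h1
  by_contra hlt
  push Not at hlt
  have h7 : H.index = 7 := by
    interval_cases hk : H.index
    all_goals first | rfl | (exfalso; revert h1; decide)
  obtain ⟨P⟩ := (Sylow.nonempty : Nonempty (Sylow 7 G))
  have h2 := two_mul_card_normalizer_dvd_of_index_prime (not_prime_504 h) H 7 (by norm_num) h7 P
  have h3 := card_sylow_mul_card_normalizer 7 P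
  rw [h] at h3
  rcases card_sylow7_cases h with h4 | h4
  · rw [h4] at h3
    have : Nat.card (Subgroup.normalizer ((P : Subgroup G) : Set G)) = 63 := by omega
    rw [this] at h2
    revert h2; decide
  · rw [h4] at h3
    have : Nat.card (Subgroup.normalizer ((P : Subgroup G) : Set G)) = 14 := by omega
    rw [this] at h2
    revert h2; decide

/-- Consequently a subgroup of order greater than 63 is everything. -/
theorem eq_top_of_card_gt (h : Nat.card G = 504) (H : Subgroup G) (hH : 63 < Nat.card H) :
    H = ⊤ := by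
  by_contra hne
  have h1 := index_ge h H hne
  have h2 := H.index_mul_card
  rw [h] at h2
  nlinarith

theorem card_sylow3 (h : Nat.card G = 504) : Nat.card (Sylow 3 G) = 28 := by
  have hc := card_sylow_mem_cands (G := G) 3 2 56 (by rw [h]; norm_num) (by norm_num)
  have hcl : sylowCands 3 56 = [1, 4, 7, 28] := by decide +kernel
  rw [hcl] at hc
  simp only [List.mem_cons, List.not_mem_nil, or_false] at hc
  have hne1 : Nat.card (Sylow 3 G) ≠ 1 :=
    card_sylow_ne_one 3 (by rw [h]; norm_num) 2 (by norm_num) (by norm_num) (by rw [h]; norm_num)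
  obtain ⟨P⟩ := (Sylow.nonempty : Nonempty (Sylow 3 G))
  have h1 : Nat.card (Sylow 3 G) = (Subgroup.normalizer ((P : Subgroup G) : Set G)).index :=
    P.card_eq_index_normalizer
  have h2 := index_ge h _ (normalizer_sylow_ne_top 3 P hne1)
  omega

theorem card_sylow3_sub (h : Nat.card G = 504) (Q : Sylow 3 G) : Nat.card (Q : Subgroup G) = 9 :=
  card_sylow_eq_of_card_eq 3 2 56 (by rw [h]; norm_num) (by norm_num) Q

theorem card_sylow7_sub (h : Nat.card G = 504) (P : Sylow 7 G) : Nat.card (P : Subgroup G) = 7 :=
  card_sylow_eq_of_card_eq 7 1 72 (by rw [h]; norm_num) (by norm_num) P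

theorem card_sylow2_sub (h : Nat.card G = 504) (S : Sylow 2 G) : Nat.card (S : Subgroup G) = 8 :=
  card_sylow_eq_of_card_eq 2 3 63 (by rw [h]; norm_num) (by norm_num) S

theorem card_normalizer_sylow3 (h : Nat.card G = 504) (Q : Sylow 3 G) :
    Nat.card (Subgroup.normalizer ((Q : Subgroup G) : Set G)) = 18 := by
  have h3 := card_sylow_mul_card_normalizer 3 Q
  rw [h, card_sylow3 h] at h3
  omega

end Cfsg.Agent.Lib.Helper35.Ord504
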