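import Mathlib
import Cfsg.Agent.Lib.Helper35.Ord504a

set_option autoImplicit false
set_option linter.unusedSectionVars false

namespace Cfsg.Agent.Lib.Helper35.Ord504

open Cfsg.Agent.Lib.Helper17

variable {G : Type*} [Group G] [Finite G] [IsSimpleGroup G]

theorem sylow3_comm (h : Nat.card G = 504) (Q : Sylow 3 G) :
    IsMulCommutative (Q : Subgroup G) :=
  IsPGroup.isMulCommutative_of_card_eq_prime_sq (p := 3) (by rw [card_sylow3_sub h Q]; norm_num)

theorem sylow3_comm' (h : Nat.card G = 504) (Q : Sylow 3 G) {a b : G}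
    (ha : a ∈ (Q : Subgroup G)) (hb : b ∈ (Q : Subgroup G)) : a * b = b * a := by
  have := (sylow3_comm h Q).1.1 ⟨a, ha⟩ ⟨b, hb⟩
  exact congrArg Subtype.val this

/-- Transfer: an element of a Sylow 3-subgroup that is central in its normalizer is trivial. -/
theorem eq_one_of_central_normalizer (h : Nat.card G = 504) (Q : Sylow 3 G) (z : G)
    (hz : z ∈ (Q : Subgroup G))
    (hc : ∀ n ∈ Subgroup.normalizer ((Q : Subgroup G) : Set G), n⁻¹ * z * n = z) : z = 1 := by
  have := sylow3_comm h Q
  let _ : CommGroup (Q : Subgroup G) :=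
    { (inferInstance : Group (Q : Subgroup G)) with
      mul_comm := fun a b => (sylow3_comm h Q).1.1 a b }
  have key : ∀ (k : ℕ) (g₀ : G), g₀⁻¹ * z ^ k * g₀ ∈ (Q : Subgroup G) →
      g₀⁻¹ * z ^ k * g₀ = z ^ k := by
    intro k g₀ hg
    obtain ⟨n, hn, hn'⟩ := Q.conj_eq_normalizer_conj_of_mem (z ^ k) g₀ (pow_mem hz k) hg
    rw [hn']
    have h1 : n⁻¹ * z ^ k * n = (n⁻¹ * z * n) ^ k := by
      simpa using (conj_pow (a := n⁻¹) (b := z) (i := k)).symm
    rw [h1, hc n hn]
  have htr := MonoidHom.transfer_eq_pow (MonoidHom.id (Q : Subgroup G)) z key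
  rcases (MonoidHom.normal_ker (MonoidHom.transfer (MonoidHom.id (Q : Subgroup G)))).eq_bot_or_eq_top
    with hk | hk
  · exfalso
    have hinj := (MonoidHom.ker_eq_bot_iff _).mp hk
    have := Nat.card_le_card_of_injective _ hinj
    rw [h, card_sylow3_sub h Q] at this
    omega
  · have hz1 : z ∈ (MonoidHom.transfer (MonoidHom.id (Q : Subgroup G))).ker := by
      rw [hk]; trivial
    rw [MonoidHom.mem_ker, htr] at hz1
    have hz2 : z ^ (Q : Subgroup G).index = 1 := by
      have := congrArg Subtype.val hz1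
      simpa using this
    have hidx : (Q : Subgroup G).index = 56 := by
      have := (Q : Subgroup G).index_mul_card
      rw [h, card_sylow3_sub h Q] at this
      omega
    rw [hidx] at hz2
    have h9 : z ^ 9 = 1 := by
      have := Subgroup.orderOf_dvd_natCard _ hz
      rw [card_sylow3_sub h Q] at this
      exact orderOf_dvd_iff_pow_eq_one.mp this
    have h1 : orderOf z ∣ 56 := orderOf_dvd_of_pow_eq_one hz2
    have h2 : orderOf z ∣ 9 := orderOf_dvd_of_pow_eq_one h9
    have h3 : orderOf z ∣ Nat.gcd 56 9 := Nat.dvd_gcd h1 h2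
    have h4 : Nat.gcd 56 9 = 1 := by decide
    rw [h4] at h3
    exact orderOf_eq_one_iff.mp (Nat.dvd_one.mp h3)

omit [IsSimpleGroup G] in
/-- Cauchy's theorem inside a subgroup. -/
theorem exists_mem_orderOf (H : Subgroup G) (p : ℕ) [Fact p.Prime] (hd : p ∣ Nat.card H) :
    ∃ x ∈ H, orderOf x = p := by
  obtain ⟨x, hx⟩ := exists_prime_orderOf_dvd_card' (G := H) p hd
  exact ⟨(x : G), x.2, by rw [Subgroup.orderOf_coe]; exact hx⟩

/-- There is an involution in `N(Q)` inverting `Q`. -/
theorem exists_inverting (h : Nat.card G = 504) (Q : Sylow 3 G) :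
    ∃ t ∈ Subgroup.normalizer ((Q : Subgroup G) : Set G), orderOf t = 2 ∧
      ∀ z ∈ (Q : Subgroup G), t * z * t⁻¹ = z⁻¹ := by
  have hNcard := card_normalizer_sylow3 h Q
  obtain ⟨t, htN, ht2⟩ := exists_mem_orderOf (Subgroup.normalizer ((Q : Subgroup G) : Set G)) 2
    (by rw [hNcard]; norm_num)
  refine ⟨t, htN, ht2, ?_⟩
  intro z hz
  have htt : t * t = 1 := by rw [← pow_two, ← ht2]; exact pow_orderOf_eq_one t
  have htinv : t⁻¹ = t := inv_eq_of_mul_eq_one_left htt
  have hconj : ∀ q ∈ (Q : Subgroup G), t * q * t⁻¹ ∈ (Q : Subgroup G) := fun q hq =>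
    (Subgroup.mem_normalizer_iff.mp htN q).mp hq
  have hwQ : z * (t * z * t⁻¹) ∈ (Q : Subgroup G) := mul_mem hz (hconj z hz)
  have htw : t * (z * (t * z * t⁻¹)) = (z * (t * z * t⁻¹)) * t := by
    have hcomm : z * (t * z * t⁻¹) = (t * z * t⁻¹) * z := sylow3_comm' h Q hz (hconj z hz)
    rw [htinv] at hcomm ⊢
    calc t * (z * (t * z * t)) = t * ((t * z * t) * z) := by rw [hcomm]
      _ = (t * t) * z * (t * z) := by group
      _ = z * (t * z) := by rw [htt, one_mul]
      _ = z * (t * z) * (t * t) := by rw [htt, mul_one]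
      _ = z * (t * z * t) * t := by group
  -- `N(Q)` centralizes `w`
  have hNle : Subgroup.normalizer ((Q : Subgroup G) : Set G) ≤
      Subgroup.centralizer {z * (t * z * t⁻¹)} := by
    have hQK : (Q : Subgroup G) ≤ Subgroup.centralizer ({z * (t * z * t⁻¹)} : Set G) ⊓
        Subgroup.normalizer ((Q : Subgroup G) : Set G) := by
      intro q hq
      exact Subgroup.mem_inf.mpr ⟨Subgroup.mem_centralizer_singleton_iff.mpr
        (sylow3_comm' h Q hq hwQ), Subgroup.le_normalizer hq⟩
    have htK : t ∈ Subgroup.centralizer ({z * (t * z * t⁻¹)} : Set G) ⊓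
        Subgroup.normalizer ((Q : Subgroup G) : Set G) :=
      Subgroup.mem_inf.mpr ⟨Subgroup.mem_centralizer_singleton_iff.mpr htw, htN⟩
    have hKN : Subgroup.centralizer ({z * (t * z * t⁻¹)} : Set G) ⊓
        Subgroup.normalizer ((Q : Subgroup G) : Set G) ≤
        Subgroup.normalizer ((Q : Subgroup G) : Set G) := inf_le_right
    have h1 := Subgroup.card_dvd_of_le hKN
    rw [hNcard] at h1
    have h2 := Subgroup.card_dvd_of_le hQK
    rw [card_sylow3_sub h Q] at h2
    have h3 : Nat.card (Subgroup.centralizer ({z * (t * z * t⁻¹)} : Set G) ⊓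
        Subgroup.normalizer ((Q : Subgroup G) : Set G) : Subgroup G) ≠ 9 := by
      intro h9
      have hKQ := Subgroup.eq_of_le_of_card_ge hQK (by rw [h9, card_sylow3_sub h Q])
      have htQ : t ∈ (Q : Subgroup G) := hKQ ▸ htK
      have := Subgroup.orderOf_dvd_natCard _ htQ
      rw [ht2, card_sylow3_sub h Q] at this
      revert this; decide
    have h4 : Nat.card (Subgroup.centralizer ({z * (t * z * t⁻¹)} : Set G) ⊓
        Subgroup.normalizer ((Q : Subgroup G) : Set G) : Subgroup G) = 18 := by
      have hle := Nat.le_of_dvd (by norm_num) h1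
      obtain ⟨c, hc⟩ := h2
      have hc' : c = 1 ∨ c = 2 := by
        have : 0 < c := by
          rcases Nat.eq_zero_or_pos c with h0 | h0
          · rw [h0] at hc; rw [hc] at h1; norm_num at h1
          · exact h0
        omega
      rcases hc' with rfl | rfl
      · exact absurd hc h3
      · exact hc
    have hKN' := Subgroup.eq_of_le_of_card_ge hKN (by rw [h4, hNcard])
    rw [← hKN']; exact inf_le_left
  have hw1 : z * (t * z * t⁻¹) = 1 := by
    apply eq_one_of_central_normalizer h Q _ hwQ
    intro n hn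
    have := hNle hn
    rw [Subgroup.mem_centralizer_singleton_iff] at this
    rw [mul_assoc, ← this]; group
  exact eq_inv_of_mul_eq_one_right hw1

omit [Finite G] [IsSimpleGroup G] in
theorem centralizer_le_normalizer_zpowers (z : G) :
    Subgroup.centralizer ({z} : Set G) ≤
      Subgroup.normalizer ((Subgroup.zpowers z : Subgroup G) : Set G) := by
  intro c hc
  rw [Subgroup.mem_centralizer_singleton_iff] at hc
  rw [Subgroup.mem_normalizer_iff]
  intro x
  have key : ∀ y ∈ Subgroup.zpowers z, c * y = y * c := by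
    intro y hy
    obtain ⟨k, rfl⟩ := Subgroup.mem_zpowers_iff.mp hy
    have hc' : Commute c z := hc
    exact (hc'.zpow_right k).eq
  constructor
  · intro hx
    have := key x hx
    rw [this, mul_inv_cancel_right]; exact hx
  · intro hx
    have := key _ hx
    have h3 : c * x * c⁻¹ = x := by
      have : c * (c * x * c⁻¹) = c * x := by rw [this]; group
      exact mul_left_cancel this
    rw [← h3]; exact hx

/-- The centralizer of a nontrivial element of a Sylow 3-subgroup is that subgroup. -/
theorem centralizer_eq_sylow3 (h : Nat.card G = 504) (Q : Sylow 3 G) (z : G)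
    (hz : z ∈ (Q : Subgroup G)) (hz1 : z ≠ 1) :
    Subgroup.centralizer ({z} : Set G) = (Q : Subgroup G) := by
  obtain ⟨t, htN, ht2, htinv⟩ := exists_inverting h Q
  have htt : t * t = 1 := by rw [← pow_two, ← ht2]; exact pow_orderOf_eq_one t
  have htinv' : t⁻¹ = t := inv_eq_of_mul_eq_one_left htt
  have hQC : (Q : Subgroup G) ≤ Subgroup.centralizer ({z} : Set G) := fun q hq =>
    Subgroup.mem_centralizer_singleton_iff.mpr (sylow3_comm' h Q hq hz)
  have h9 : z ^ 9 = 1 := by
    have := Subgroup.orderOf_dvd_natCard _ hz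
    rw [card_sylow3_sub h Q] at this
    exact orderOf_dvd_iff_pow_eq_one.mp this
  have htC : t ∉ Subgroup.centralizer ({z} : Set G) := by
    intro htc
    rw [Subgroup.mem_centralizer_singleton_iff] at htc
    have h1 : z⁻¹ = z := by rw [← htinv z hz, htc]; group
    have h2 : z ^ 2 = 1 := by
      rw [pow_two]; nth_rewrite 1 [← h1]; group
    apply hz1
    calc z = z ^ 9 * ((z ^ 2)⁻¹) ^ 4 := by group
      _ = 1 := by rw [h9, h2]; group
  have hCM := centralizer_le_normalizer_zpowers z
  have htM : t ∈ Subgroup.normalizer ((Subgroup.zpowers z : Subgroup G) : Set G) := by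
    rw [Subgroup.mem_normalizer_iff]
    have fwd : ∀ x ∈ Subgroup.zpowers z, t * x * t⁻¹ ∈ Subgroup.zpowers z := by
      intro x hx
      obtain ⟨k, rfl⟩ := Subgroup.mem_zpowers_iff.mp hx
      have : t * z ^ k * t⁻¹ = (z⁻¹) ^ k := by
        rw [← htinv z hz, conj_zpow]
      rw [this]
      exact zpow_mem (inv_mem (Subgroup.mem_zpowers z)) k
    intro x
    refine ⟨fwd x, fun hx => ?_⟩
    have := fwd _ hx
    rw [htinv'] at this
    have e : t * (t * x * t) * t = x := by
      calc t * (t * x * t) * t = (t * t) * x * (t * t) := by group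
        _ = x := by rw [htt]; group
    rwa [e] at this
  have hMtop : Subgroup.normalizer ((Subgroup.zpowers z : Subgroup G) : Set G) ≠ ⊤ := by
    intro hMt
    have hnorm : (Subgroup.zpowers z).Normal := Subgroup.normalizer_eq_top_iff.mp hMt
    rcases hnorm.eq_bot_or_eq_top with hb | ht
    · exact hz1 (Subgroup.zpowers_eq_bot.mp hb)
    · have := Nat.card_zpowers z
      rw [ht, Subgroup.card_top, h] at this
      have h9 := Subgroup.orderOf_dvd_natCard _ hz
      rw [card_sylow3_sub h Q, ← this] at h9
      norm_num at h9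
  have hMle : Nat.card (Subgroup.normalizer ((Subgroup.zpowers z : Subgroup G) : Set G)) ≤ 63 := by
    by_contra hgt
    exact hMtop (eq_top_of_card_gt h _ (by omega))
  have h1 := Subgroup.card_dvd_of_le hQC
  have h2 := Subgroup.card_dvd_of_le hCM
  have h3 : Nat.card (Subgroup.centralizer ({z} : Set G)) ≠
      Nat.card (Subgroup.normalizer ((Subgroup.zpowers z : Subgroup G) : Set G)) := by
    intro heq
    have := Subgroup.eq_of_le_of_card_ge hCM (by rw [heq])
    exact htC (this ▸ htM)
  have h4 : Nat.card (Subgroup.centralizer ({z} : Set G)) ∣ 504 :=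
    h ▸ Subgroup.card_subgroup_dvd_card _
  rw [card_sylow3_sub h Q] at h1
  obtain ⟨m, hm⟩ := h1
  obtain ⟨j, hj⟩ := h2
  have hm12 : m = 1 ∨ m = 2 := by
    have hmpos : 0 < m := by
      rcases Nat.eq_zero_or_pos m with h0 | h0
      · rw [h0] at hm
        have := Nat.card_pos (α := Subgroup.centralizer ({z} : Set G))
        omega
      · exact h0
    have hj2 : 2 ≤ j := by
      have hMpos := Nat.card_pos (α := Subgroup.normalizer ((Subgroup.zpowers z : Subgroup G) : Set G))
      rcases Nat.lt_or_ge j 2 with hlt | hge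
      · exfalso
        interval_cases j
        · omega
        · apply h3; rw [hj, mul_one]
      · exact hge
    have h5 : 9 * m * j ≤ 63 := by rw [← hm, ← hj]; exact hMle
    have hm3 : m ≤ 3 := by nlinarith
    interval_cases m
    · left; rfl
    · right; rfl
    · exfalso; rw [hm] at h4; norm_num at h4
  rcases hm12 with rfl | rfl
  · exact (Subgroup.eq_of_le_of_card_ge hQC (by rw [hm, card_sylow3_sub h Q])).symm
  · exfalso
    have hidx : ((Q : Subgroup G).subgroupOf (Subgroup.centralizer ({z} : Set G))).index = 2 := by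
      have := ((Q : Subgroup G).subgroupOf (Subgroup.centralizer ({z} : Set G))).index_mul_card
      rw [Nat.card_congr (Subgroup.subgroupOfEquivOfLe hQC).toEquiv, card_sylow3_sub h Q, hm] at this
      omega
    have hnorm := Subgroup.normal_of_index_eq_two hidx
    have hCN := (Subgroup.normal_subgroupOf_iff_le_normalizer hQC).mp hnorm
    have := Subgroup.eq_of_le_of_card_ge hCN (by rw [hm, card_normalizer_sylow3 h Q])
    exact htC (this ▸ htN)

end Cfsg.Agent.Lib.Helper35.Ord504
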