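import Mathlib
import Cfsg.Agent.Lib.Helper35.Ord504b

set_option autoImplicit false
set_option linter.unusedSectionVars false

namespace Cfsg.Agent.Lib.Helper35.Ord504

open Cfsg.Agent.Lib.Helper17

variable {G : Type*} [Group G] [Finite G] [IsSimpleGroup G]

/-- An element commuting with an element of order 3 has order dividing 9. -/
theorem orderOf_dvd_nine_of_commute (h : Nat.card G = 504) (c x : G) (hc : orderOf c = 3)
    (hcx : x * c = c * x) : orderOf x ∣ 9 := by
  have hpg : IsPGroup 3 (Subgroup.zpowers c) := by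
    apply IsPGroup.of_card (n := 1)
    rw [Nat.card_zpowers, hc, pow_one]
  obtain ⟨Q, hQ⟩ := hpg.exists_le_sylow
  have hcQ : c ∈ (Q : Subgroup G) := hQ (Subgroup.mem_zpowers c)
  have hc1 : c ≠ 1 := by
    rintro rfl
    rw [orderOf_one] at hc
    omega
  have hC := centralizer_eq_sylow3 h Q c hcQ hc1
  have hx : x ∈ (Q : Subgroup G) := by
    rw [← hC]; exact Subgroup.mem_centralizer_singleton_iff.mpr hcx
  have := Subgroup.orderOf_dvd_natCard _ hx
  rwa [card_sylow3_sub h Q] at this

theorem card_sylow7 (h : Nat.card G = 504) : Nat.card (Sylow 7 G) = 36 := by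
  rcases card_sylow7_cases h with h8 | h36
  · exfalso
    obtain ⟨P⟩ := (Sylow.nonempty : Nonempty (Sylow 7 G))
    have hP := card_sylow7_sub h P
    obtain ⟨r1, r2, r3, r4⟩ := relIndex_centralizer_sylow_prime (not_prime_504 h) 7 P hP
    have hN := card_sylow_mul_card_normalizer 7 P
    rw [h, h8] at hN
    have hN' : Nat.card (Subgroup.normalizer ((P : Subgroup G) : Set G)) = 63 := by omega
    rw [hN'] at r3
    have h3 : 3 ∣ Nat.card (Subgroup.centralizer ((P : Subgroup G) : Set G)) := by
      have hr : (Subgroup.centralizer ((P : Subgroup G) : Set G)).relIndex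
          (Subgroup.normalizer ((P : Subgroup G) : Set G)) ≤ 6 := Nat.le_of_dvd (by norm_num) r2
      generalize (Subgroup.centralizer ((P : Subgroup G) : Set G)).relIndex
          (Subgroup.normalizer ((P : Subgroup G) : Set G)) = r at *
      generalize Nat.card (Subgroup.centralizer ((P : Subgroup G) : Set G)) = c at *
      interval_cases r <;> omega
    obtain ⟨c, hcC, hc3⟩ := exists_mem_orderOf _ 3 h3
    obtain ⟨y, hyP, hy7⟩ := exists_mem_orderOf (P : Subgroup G) 7 (by rw [hP])
    have hcy : y * c = c * y := Subgroup.mem_centralizer_iff.mp hcC y hyP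
    have := orderOf_dvd_nine_of_commute h c y hc3 hcy
    rw [hy7] at this; norm_num at this
  · exact h36

/-- An element commuting with an element of order 7 has order dividing 7. -/
theorem orderOf_dvd_seven_of_commute (h : Nat.card G = 504) (y x : G) (hy : orderOf y = 7)
    (hyx : x * y = y * x) : orderOf x ∣ 7 := by
  have hpg : IsPGroup 7 (Subgroup.zpowers y) := by
    apply IsPGroup.of_card (n := 1)
    rw [Nat.card_zpowers, hy, pow_one]
  obtain ⟨P, hPle⟩ := hpg.exists_le_sylow
  have hyP : y ∈ (P : Subgroup G) := hPle (Subgroup.mem_zpowers y)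
  have hP := card_sylow7_sub h P
  have hy1 : y ≠ 1 := by
    rintro rfl
    rw [orderOf_one] at hy
    omega
  have hz := zpowers_eq_of_mem_of_card_prime (by norm_num : Nat.Prime 7) (P : Subgroup G) hP y hyP hy1
  obtain ⟨r1, r2, r3, r4⟩ := relIndex_centralizer_sylow_prime (not_prime_504 h) 7 P hP
  have hN := card_sylow_mul_card_normalizer 7 P
  rw [h, card_sylow7 h] at hN
  have hN' : Nat.card (Subgroup.normalizer ((P : Subgroup G) : Set G)) = 14 := by omega
  rw [hN'] at r3
  have h7 : Nat.card (Subgroup.centralizer ((P : Subgroup G) : Set G)) = 7 := by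
    have hr : (Subgroup.centralizer ((P : Subgroup G) : Set G)).relIndex
        (Subgroup.normalizer ((P : Subgroup G) : Set G)) ≤ 6 := Nat.le_of_dvd (by norm_num) r2
    generalize (Subgroup.centralizer ((P : Subgroup G) : Set G)).relIndex
        (Subgroup.normalizer ((P : Subgroup G) : Set G)) = r at *
    generalize Nat.card (Subgroup.centralizer ((P : Subgroup G) : Set G)) = c at *
    interval_cases r <;> omega
  have hx : x ∈ Subgroup.centralizer ((P : Subgroup G) : Set G) := by
    rw [Subgroup.mem_centralizer_iff]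
    intro g hg
    have hg' : g ∈ Subgroup.zpowers y := by rw [hz]; exact hg
    obtain ⟨k, rfl⟩ := Subgroup.mem_zpowers_iff.mp hg'
    have hc : Commute x y := hyx
    exact (hc.zpow_right k).eq.symm
  have := Subgroup.orderOf_dvd_natCard _ hx
  rwa [h7] at this

/-- The centralizer of an involution has order dividing 8. -/
theorem card_centralizer_involution_dvd (h : Nat.card G = 504) (x : G) (hx : orderOf x = 2) :
    Nat.card (Subgroup.centralizer ({x} : Set G)) ∣ 8 := by
  have h1 : Nat.card (Subgroup.centralizer ({x} : Set G)) ∣ 504 :=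
    h ▸ Subgroup.card_subgroup_dvd_card _
  have h3 : ¬ 3 ∣ Nat.card (Subgroup.centralizer ({x} : Set G)) := by
    intro hd
    obtain ⟨c, hcC, hc3⟩ := exists_mem_orderOf _ 3 hd
    have hcx : x * c = c * x := (Subgroup.mem_centralizer_singleton_iff.mp hcC).symm
    have := orderOf_dvd_nine_of_commute h c x hc3 hcx
    rw [hx] at this; norm_num at this
  have h7 : ¬ 7 ∣ Nat.card (Subgroup.centralizer ({x} : Set G)) := by
    intro hd
    obtain ⟨c, hcC, hc7⟩ := exists_mem_orderOf _ 7 hd
    have hcx : x * c = c * x := (Subgroup.mem_centralizer_singleton_iff.mp hcC).symm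
    have := orderOf_dvd_seven_of_commute h c x hc7 hcx
    rw [hx] at this; norm_num at this
  have hcop : Nat.Coprime (Nat.card (Subgroup.centralizer ({x} : Set G))) 63 := by
    have e : (63 : ℕ) = 3 ^ 2 * 7 := by norm_num
    rw [e]
    apply Nat.Coprime.mul_right
    · apply Nat.Coprime.pow_right
      rw [Nat.coprime_comm, Nat.Prime.coprime_iff_not_dvd (by norm_num)]
      exact h3
    · rw [Nat.coprime_comm, Nat.Prime.coprime_iff_not_dvd (by norm_num)]
      exact h7
  have e : (504 : ℕ) = 8 * 63 := by norm_num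
  rw [e] at h1
  exact hcop.dvd_of_dvd_mul_right h1

/-- There are at least 224 nontrivial 3-elements. -/
theorem card_three_elements (h : Nat.card G = 504) :
    224 ≤ Set.ncard {g : G | g ≠ 1 ∧ g ^ 9 = 1} := by
  classical
  have : Fintype (Sylow 3 G) := Fintype.ofFinite _
  let f : (Σ Q : Sylow 3 G, {x : (Q : Subgroup G) // x ≠ 1}) → {g : G | g ≠ 1 ∧ g ^ 9 = 1} :=
    fun a => ⟨(a.2.1 : G), fun h1 => a.2.2 (Subtype.ext h1), by
      have := Subgroup.orderOf_dvd_natCard _ a.2.1.2
      rw [card_sylow3_sub h a.1] at this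
      exact orderOf_dvd_iff_pow_eq_one.mp this⟩
  have hf : Function.Injective f := by
    rintro ⟨Q1, x1, hx1⟩ ⟨Q2, x2, hx2⟩ hxy
    have e : (x1 : G) = (x2 : G) := congrArg Subtype.val hxy
    have hQ : Q1 = Q2 := by
      apply Sylow.ext
      rw [← centralizer_eq_sylow3 h Q1 x1 x1.2 (fun h1 => hx1 (Subtype.ext h1)),
          ← centralizer_eq_sylow3 h Q2 x2 x2.2 (fun h1 => hx2 (Subtype.ext h1)), e]
    subst hQ
    have : x1 = x2 := Subtype.ext e
    subst this
    rfl
  have hcard : Nat.card (Σ Q : Sylow 3 G, {x : (Q : Subgroup G) // x ≠ 1}) = 224 := by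
    rw [Nat.card_sigma]
    have : ∀ Q : Sylow 3 G, Nat.card {x : (Q : Subgroup G) // x ≠ 1} = 8 := by
      intro Q
      have h1 := Nat.card_congr (Equiv.optionSubtypeNe (1 : ↥(Q : Subgroup G)))
      rw [Finite.card_option, card_sylow3_sub h Q] at h1
      omega
    simp only [this, Finset.sum_const, Finset.card_univ, smul_eq_mul]
    rw [← Nat.card_eq_fintype_card, card_sylow3 h]
  rw [← hcard, ← Nat.card_coe_set_eq]
  exact Nat.card_le_card_of_injective f hf

/-- There are at most 63 nontrivial 2-elements. -/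
theorem ncard_two_elements_le (h : Nat.card G = 504) :
    Set.ncard {g : G | g ≠ 1 ∧ g ^ 8 = 1} ≤ 63 := by
  have h7 : Set.ncard {g : G | orderOf g = 7} = 216 := by
    obtain ⟨P⟩ := (Sylow.nonempty : Nonempty (Sylow 7 G))
    have := card_orderOf_eq_prime 7 P (card_sylow7_sub h P)
    rw [card_sylow7 h] at this
    rw [← Nat.card_coe_set_eq]; exact this
  have h3 := card_three_elements h
  have d1 : Disjoint {g : G | orderOf g = 7} {g : G | g ≠ 1 ∧ g ^ 9 = 1} := by
    rw [Set.disjoint_left]
    intro g hg7 hg3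
    have := orderOf_dvd_of_pow_eq_one hg3.2
    rw [hg7] at this; norm_num at this
  have d2 : Disjoint ({g : G | orderOf g = 7} ∪ {g : G | g ≠ 1 ∧ g ^ 9 = 1})
      {g : G | g ≠ 1 ∧ g ^ 8 = 1} := by
    rw [Set.disjoint_left]
    rintro g (hg7 | hg3) hg2
    · have := orderOf_dvd_of_pow_eq_one hg2.2
      rw [hg7] at this; norm_num at this
    · apply hg2.1
      calc g = g ^ 9 * (g ^ 8)⁻¹ := by group
        _ = 1 := by rw [hg3.2, hg2.2]; group
  have d3 : (1 : G) ∉ ({g : G | orderOf g = 7} ∪ {g : G | g ≠ 1 ∧ g ^ 9 = 1}) ∪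
      {g : G | g ≠ 1 ∧ g ^ 8 = 1} := by
    rintro ((h1 | h1) | h1)
    · simp at h1
    · exact h1.1 rfl
    · exact h1.1 rfl
  have e1 := Set.ncard_union_eq d1
  have e2 := Set.ncard_union_eq d2
  have e3 := Set.ncard_insert_of_notMem d3
  have e4 := Set.ncard_le_card (insert (1 : G) (({g : G | orderOf g = 7} ∪
    {g : G | g ≠ 1 ∧ g ^ 9 = 1}) ∪ {g : G | g ≠ 1 ∧ g ^ 8 = 1}))
  rw [h] at e4
  omega

/-- Involutions have centralizers of order 8 and every nontrivial 2-element is an involution. -/
theorem involution_facts (h : Nat.card G = 504) (x : G) (hx : orderOf x = 2) :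
    Nat.card (Subgroup.centralizer ({x} : Set G)) = 8 ∧
      ∀ g : G, g ^ 8 = 1 → g ^ 2 = 1 := by
  have hx2 : x ^ 2 = 1 := by rw [← hx]; exact pow_orderOf_eq_one x
  have hx1 : x ≠ 1 := by
    rintro rfl
    rw [orderOf_one] at hx; omega
  have hsub : {g : G | IsConj x g} ⊆ {g : G | g ≠ 1 ∧ g ^ 8 = 1} := by
    intro g hg
    obtain ⟨c, hc⟩ := isConj_iff.mp hg
    have hg2 : g ^ 2 = 1 := by
      rw [← hc, conj_pow, hx2]; group
    refine ⟨?_, ?_⟩
    · rintro rfl
      apply hx1
      have : c * x * c⁻¹ = 1 := hc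
      calc x = c⁻¹ * (c * x * c⁻¹) * c := by group
        _ = 1 := by rw [this]; group
    · calc g ^ 8 = (g ^ 2) ^ 4 := by group
        _ = 1 := by rw [hg2, one_pow]
  have hle := (Set.ncard_le_ncard hsub).trans (ncard_two_elements_le h)
  have hcl := card_isConj_mul_card_centralizer x
  rw [h] at hcl
  have hcl' : Set.ncard {g : G | IsConj x g} * Nat.card (Subgroup.centralizer ({x} : Set G)) = 504 := by
    rw [← Nat.card_coe_set_eq]; exact hcl
  have hd := card_centralizer_involution_dvd h x hx
  have hd8 := Nat.le_of_dvd (by norm_num) hd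
  have hC : Nat.card (Subgroup.centralizer ({x} : Set G)) = 8 := by nlinarith
  refine ⟨hC, ?_⟩
  rw [hC] at hcl'
  have hcl63 : Set.ncard {g : G | IsConj x g} = 63 := by omega
  have heq := Set.eq_of_subset_of_ncard_le hsub (by rw [hcl63]; exact ncard_two_elements_le h)
  intro g hg8
  by_cases hg1 : g = 1
  · rw [hg1, one_pow]
  · have hg : g ∈ {g : G | IsConj x g} := by rw [heq]; exact ⟨hg1, hg8⟩
    obtain ⟨c, hc⟩ := isConj_iff.mp hg
    rw [← hc, conj_pow, hx2]; group

end Cfsg.Agent.Lib.Helper35.Ord504
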