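import Mathlib
import Cfsg.Agent.Lib.Helper35.Ord504c

set_option autoImplicit false
set_option linter.unusedSectionVars false

namespace Cfsg.Agent.Lib.Helper35.Ord504

open Cfsg.Agent.Lib.Helper17

variable {G : Type*} [Group G] [Finite G] [IsSimpleGroup G]

theorem sq_eq_one_of_pow_eight (h : Nat.card G = 504) (g : G) (hg : g ^ 8 = 1) : g ^ 2 = 1 := by
  obtain ⟨x, hx⟩ := exists_prime_orderOf_dvd_card' (G := G) 2 (by rw [h]; norm_num)
  exact (involution_facts h x hx).2 g hg

theorem sylow2_sq (h : Nat.card G = 504) (S : Sylow 2 G) (g : G) (hg : g ∈ (S : Subgroup G)) :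
    g * g = 1 := by
  have h8 : g ^ 8 = 1 := by
    have := Subgroup.orderOf_dvd_natCard _ hg
    rw [card_sylow2_sub h S] at this
    exact orderOf_dvd_iff_pow_eq_one.mp this
  rw [← pow_two]
  exact sq_eq_one_of_pow_eight h g h8

theorem sylow2_comm (h : Nat.card G = 504) (S : Sylow 2 G) {a b : G}
    (ha : a ∈ (S : Subgroup G)) (hb : b ∈ (S : Subgroup G)) : a * b = b * a := by
  have h1 := sylow2_sq h S a ha
  have h2 := sylow2_sq h S b hb
  have h3 := sylow2_sq h S (a * b) (mul_mem ha hb)
  have e1 : a⁻¹ = a := inv_eq_of_mul_eq_one_left h1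
  have e2 : b⁻¹ = b := inv_eq_of_mul_eq_one_left h2
  have e3 : (a * b)⁻¹ = a * b := inv_eq_of_mul_eq_one_left h3
  rw [← e3, mul_inv_rev, e1, e2]

/-- The centralizer of a nontrivial element of a Sylow 2-subgroup is that subgroup. -/
theorem centralizer_eq_sylow2 (h : Nat.card G = 504) (S : Sylow 2 G) (x : G)
    (hx : x ∈ (S : Subgroup G)) (hx1 : x ≠ 1) :
    Subgroup.centralizer ({x} : Set G) = (S : Subgroup G) := by
  have hSC : (S : Subgroup G) ≤ Subgroup.centralizer ({x} : Set G) := fun q hq =>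
    Subgroup.mem_centralizer_singleton_iff.mpr (sylow2_comm h S hq hx)
  have hx2 : orderOf x = 2 := by
    apply orderOf_eq_prime
    · rw [pow_two]; exact sylow2_sq h S x hx
    · exact hx1
  have hC := (involution_facts h x hx2).1
  exact (Subgroup.eq_of_le_of_card_ge hSC (by rw [hC, card_sylow2_sub h S])).symm

/-- Distinct Sylow 2-subgroups intersect trivially. -/
theorem sylow2_TI (h : Nat.card G = 504) (S₁ S₂ : Sylow 2 G) (x : G)
    (hx₁ : x ∈ (S₁ : Subgroup G)) (hx₂ : x ∈ (S₂ : Subgroup G)) (hx : x ≠ 1) : S₁ = S₂ := by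
  apply Sylow.ext
  rw [← centralizer_eq_sylow2 h S₁ x hx₁ hx, ← centralizer_eq_sylow2 h S₂ x hx₂ hx]

/-- No element of order 3 normalizes a Sylow 2-subgroup. -/
theorem not_three_normalizer (h : Nat.card G = 504) (S : Sylow 2 G) (c : G)
    (hc : c ∈ Subgroup.normalizer ((S : Subgroup G) : Set G)) (hc3 : orderOf c = 3) : False := by
  have hc3' : c ^ 3 ^ 1 = 1 := by rw [pow_one, ← hc3]; exact pow_orderOf_eq_one c
  obtain ⟨t, htS, ht1, hct⟩ := exists_fixed_conj 3 (S : Subgroup G) c hc 1 hc3'
    (by rw [card_sylow2_sub h S]; decide)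
  have hcC : c ∈ Subgroup.centralizer ({t} : Set G) := by
    rw [Subgroup.mem_centralizer_singleton_iff]
    calc c * t = (c * t * c⁻¹) * c := by group
      _ = t * c := by rw [hct]
  rw [centralizer_eq_sylow2 h S t htS ht1] at hcC
  have := Subgroup.orderOf_dvd_natCard _ hcC
  rw [card_sylow2_sub h S, hc3] at this
  norm_num at this

theorem card_sylow2 (h : Nat.card G = 504) : Nat.card (Sylow 2 G) = 9 := by
  have hc := card_sylow_mem_cands (G := G) 2 3 63 (by rw [h]; norm_num) (by norm_num)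
  have hcl : sylowCands 2 63 = [1, 3, 7, 9, 21, 63] := by decide +kernel
  rw [hcl] at hc
  simp only [List.mem_cons, List.not_mem_nil, or_false] at hc
  have hne1 : Nat.card (Sylow 2 G) ≠ 1 :=
    card_sylow_ne_one 2 (by rw [h]; norm_num) 3 (by norm_num) (by norm_num) (by rw [h]; norm_num)
  obtain ⟨S⟩ := (Sylow.nonempty : Nonempty (Sylow 2 G))
  have h1 : Nat.card (Sylow 2 G) = (Subgroup.normalizer ((S : Subgroup G) : Set G)).index :=
    S.card_eq_index_normalizer
  have h2 := index_ge h _ (normalizer_sylow_ne_top 2 S hne1)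
  have hN := card_sylow_mul_card_normalizer 2 S
  rw [h] at hN
  rcases hc with hc | hc | hc | hc | hc | hc
  · omega
  · omega
  · omega
  · exact hc
  · exfalso
    rw [hc] at hN
    have hN' : Nat.card (Subgroup.normalizer ((S : Subgroup G) : Set G)) = 24 := by omega
    obtain ⟨c, hcN, hc3⟩ := exists_mem_orderOf (Subgroup.normalizer ((S : Subgroup G) : Set G)) 3
      (by rw [hN']; norm_num)
    exact not_three_normalizer h S c hcN hc3
  · exfalso
    rw [hc] at hN
    have hN' : Nat.card (Subgroup.normalizer ((S : Subgroup G) : Set G)) = 8 := by omega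
    have hSN : (S : Subgroup G) = Subgroup.normalizer ((S : Subgroup G) : Set G) :=
      Subgroup.eq_of_le_of_card_ge Subgroup.le_normalizer (by rw [hN', card_sylow2_sub h S])
    apply not_normalizer_le_centralizer (not_prime_504 h) 2 (by rw [h]; norm_num) S
    intro n hn
    rw [← hSN] at hn
    rw [Subgroup.mem_centralizer_iff]
    intro s hs
    exact sylow2_comm h S hs hn

theorem injective_toPermHom (h : Nat.card G = 504) :
    Function.Injective (MulAction.toPermHom G (Sylow 2 G)) := by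
  rw [← MonoidHom.ker_eq_bot_iff]
  rcases (MonoidHom.normal_ker (MulAction.toPermHom G (Sylow 2 G))).eq_bot_or_eq_top with hk | hk
  · exact hk
  · exfalso
    obtain ⟨S⟩ := (Sylow.nonempty : Nonempty (Sylow 2 G))
    have hne1 : Nat.card (Sylow 2 G) ≠ 1 := by rw [card_sylow2 h]; norm_num
    apply normalizer_sylow_ne_top 2 S hne1
    rw [eq_top_iff]
    intro g _
    have hg : g ∈ (MulAction.toPermHom G (Sylow 2 G)).ker := by rw [hk]; trivial
    rw [MonoidHom.mem_ker] at hg
    have : g • S = S := by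
      have := congrArg (fun σ : Equiv.Perm (Sylow 2 G) => σ S) hg
      simpa using this
    exact Sylow.smul_eq_iff_mem_normalizer.mp this

/-- An element normalizing three distinct Sylow 2-subgroups is trivial. -/
theorem eq_one_of_fix_three (h : Nat.card G = 504) (g : G) (S₁ S₂ S₃ : Sylow 2 G)
    (h12 : S₁ ≠ S₂) (h13 : S₁ ≠ S₃) (h23 : S₂ ≠ S₃)
    (h1 : g • S₁ = S₁) (h2 : g • S₂ = S₂) (h3 : g • S₃ = S₃) : g = 1 := by
  by_contra hg
  have hord : orderOf g ≠ 1 := fun h1 => hg (orderOf_eq_one_iff.mp h1)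
  obtain ⟨p, hp, hpd⟩ := Nat.exists_prime_and_dvd hord
  have hpos : 0 < orderOf g := orderOf_pos g
  have hdvd : orderOf g ∣ 504 := h ▸ orderOf_dvd_natCard g
  have hp504 : p ∣ 504 := hpd.trans hdvd
  have hup : orderOf (g ^ (orderOf g / p)) = p := orderOf_pow_orderOf_div hpos.ne' hpd
  have hfix : ∀ S : Sylow 2 G, g • S = S → (g ^ (orderOf g / p)) • S = S := by
    intro S hS
    have : g ∈ MulAction.stabilizer G S := hS
    exact pow_mem this _
  generalize g ^ (orderOf g / p) = u at hup hfix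
  have hp237 : p = 2 ∨ p = 3 ∨ p = 7 := by
    have e : (504 : ℕ) = 2 ^ 3 * (3 ^ 2 * 7) := by norm_num
    rw [e] at hp504
    rcases (Nat.Prime.dvd_mul hp).mp hp504 with h' | h'
    · left; exact (Nat.prime_dvd_prime_iff_eq hp (by norm_num)).mp (hp.dvd_of_dvd_pow h')
    · rcases (Nat.Prime.dvd_mul hp).mp h' with h'' | h''
      · right; left
        exact (Nat.prime_dvd_prime_iff_eq hp (by norm_num)).mp (hp.dvd_of_dvd_pow h'')
      · right; right; exact (Nat.prime_dvd_prime_iff_eq hp (by norm_num)).mp h''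
  rcases hp237 with rfl | rfl | rfl
  · have hu1 : u ∈ (S₁ : Subgroup G) :=
      mem_sylow_of_mem_normalizer_of_orderOf 2 S₁ u
        (Sylow.smul_eq_iff_mem_normalizer.mp (hfix S₁ h1)) 1 (by rw [hup, pow_one])
    have hu2 : u ∈ (S₂ : Subgroup G) :=
      mem_sylow_of_mem_normalizer_of_orderOf 2 S₂ u
        (Sylow.smul_eq_iff_mem_normalizer.mp (hfix S₂ h2)) 1 (by rw [hup, pow_one])
    have hne : u ≠ 1 := by
      rintro rfl
      rw [orderOf_one] at hup; omega
    exact h12 (sylow2_TI h S₁ S₂ u hu1 hu2 hne)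
  · exact not_three_normalizer h S₁ u (Sylow.smul_eq_iff_mem_normalizer.mp (hfix S₁ h1)) hup
  · have hpg : IsPGroup 7 (Subgroup.zpowers u) := by
      apply IsPGroup.of_card (n := 1)
      rw [Nat.card_zpowers, hup, pow_one]
    have hmod := hpg.card_modEq_card_fixedPoints (Sylow 2 G)
    rw [card_sylow2 h] at hmod
    have hmem : ∀ S : Sylow 2 G, u • S = S →
        S ∈ MulAction.fixedPoints (Subgroup.zpowers u) (Sylow 2 G) := by
      intro S hS m
      obtain ⟨k, hk⟩ := Subgroup.mem_zpowers_iff.mp m.2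
      rw [Subgroup.smul_def, ← hk]
      have : u ∈ MulAction.stabilizer G S := hS
      exact zpow_mem this k
    have h3le : 3 ≤ Nat.card (MulAction.fixedPoints (Subgroup.zpowers u) (Sylow 2 G)) := by
      rw [Nat.card_coe_set_eq]
      have hsub : ({S₁, S₂, S₃} : Set (Sylow 2 G)) ⊆
          MulAction.fixedPoints (Subgroup.zpowers u) (Sylow 2 G) := by
        rintro S (rfl | rfl | rfl)
        · exact hmem _ (hfix _ h1)
        · exact hmem _ (hfix _ h2)
        · exact hmem _ (hfix _ h3)
      have hc3 : Set.ncard ({S₁, S₂, S₃} : Set (Sylow 2 G)) = 3 :=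
        Set.ncard_eq_three.mpr ⟨S₁, S₂, S₃, h12, h13, h23, rfl⟩
      rw [← hc3]
      exact Set.ncard_le_ncard hsub
    have hle9 : Nat.card (MulAction.fixedPoints (Subgroup.zpowers u) (Sylow 2 G)) ≤ 9 := by
      rw [Nat.card_coe_set_eq, ← card_sylow2 h]
      exact Set.ncard_le_card _
    have h9 : Nat.card (MulAction.fixedPoints (Subgroup.zpowers u) (Sylow 2 G)) = 9 := by
      unfold Nat.ModEq at hmod
      omega
    have huniv : MulAction.fixedPoints (Subgroup.zpowers u) (Sylow 2 G) = Set.univ := by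
      rw [Set.eq_univ_iff_ncard, ← Nat.card_coe_set_eq, h9, card_sylow2 h]
    have hu1 : u = 1 := by
      apply injective_toPermHom h
      rw [map_one]
      refine Equiv.ext fun S => ?_
      have hS : S ∈ MulAction.fixedPoints (Subgroup.zpowers u) (Sylow 2 G) := by
        rw [huniv]; trivial
      have := hS ⟨u, Subgroup.mem_zpowers u⟩
      rw [Subgroup.smul_def] at this
      exact this
    rw [hu1, orderOf_one] at hup
    omega

end Cfsg.Agent.Lib.Helper35.Ord504
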